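import Mathlib

/-!
# S1920: base change of endomorphisms and of a bilinear form (helper64)

`exists_bc` : `E : End_F V →+* End_K (K^n)` and `BK`, with the adjoint relations.
-/

set_option autoImplicit false

namespace Cfsg.Agent.H64.Co3

open Module Matrix

variable {F V : Type*} [Field F] [AddCommGroup V] [Module F V]

/-- the base change of an endomorphism -/
noncomputable def bcE {n : ℕ} (b : Basis (Fin n) F V) (K : Type*) [Field K] [Algebra F K] :
    (V →ₗ[F] V) →+* ((Fin n → K) →ₗ[K] (Fin n → K)) :=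
  ((Matrix.toLinAlgEquiv' : Matrix (Fin n) (Fin n) K ≃ₐ[K] ((Fin n → K) →ₗ[K] (Fin n → K))) :
    Matrix (Fin n) (Fin n) K →+* _).comp
   (((algebraMap F K).mapMatrix).comp
    ((LinearMap.toMatrixAlgEquiv b : (V →ₗ[F] V) ≃ₐ[F] Matrix (Fin n) (Fin n) F) : (V →ₗ[F] V) →+* _))

variable {n : ℕ} (b : Basis (Fin n) F V) (K : Type*) [Field K] [Algebra F K]

theorem bcE_apply (X : V →ₗ[F] V) (v : Fin n → K) :
    bcE b K X v = ((LinearMap.toMatrix b b X).map (algebraMap F K)) *ᵥ v := rfl

theorem bcE_smul (c : F) (X : V →ₗ[F] V) : bcE b K (c • X) = algebraMap F K c • bcE b K X := by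
  apply LinearMap.ext
  intro v
  rw [bcE_apply, LinearMap.smul_apply, bcE_apply, map_smul]
  rw [← smul_mulVec]
  congr 1
  ext i j
  simp [Matrix.map_apply]

theorem bcE_injective : Function.Injective (bcE b K) := by
  have i₁ : Function.Injective (LinearMap.toMatrixAlgEquiv b : (V →ₗ[F] V) → Matrix (Fin n) (Fin n) F) :=
    (LinearMap.toMatrixAlgEquiv b).injective
  have i₂ : Function.Injective ((algebraMap F K).mapMatrix : Matrix (Fin n) (Fin n) F → _) := by
    intro x y hxy
    ext i j
    have h1 : algebraMap F K (x i j) = algebraMap F K (y i j) := congrFun (congrFun hxy i) j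
    exact (algebraMap F K).injective h1
  have i₃ : Function.Injective (Matrix.toLinAlgEquiv' : Matrix (Fin n) (Fin n) K → _) :=
    Matrix.toLinAlgEquiv'.injective
  exact i₃.comp (i₂.comp i₁)

/-- the base change of a bilinear form -/
noncomputable def bcB (B : LinearMap.BilinForm F V) : LinearMap.BilinForm K (Fin n → K) :=
  Matrix.toBilin' ((LinearMap.BilinForm.toMatrix b B).map (algebraMap F K))

theorem bcB_apply (B : LinearMap.BilinForm F V) (u v : Fin n → K) :
    bcB b K B u v = u ⬝ᵥ ((LinearMap.BilinForm.toMatrix b B).map (algebraMap F K)) *ᵥ v :=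
  Matrix.toBilin'_apply' _ _ _

theorem bcB_symm {B : LinearMap.BilinForm F V} (hB : ∀ u v, B u v = B v u) (u v : Fin n → K) :
    bcB b K B u v = bcB b K B v u := by
  rw [bcB_apply, bcB_apply]
  set A := (LinearMap.BilinForm.toMatrix b B).map (algebraMap F K) with hA
  have h1 : Aᵀ = A := by
    ext i j
    rw [transpose_apply, hA, Matrix.map_apply, Matrix.map_apply, LinearMap.BilinForm.toMatrix_apply,
      LinearMap.BilinForm.toMatrix_apply, hB]
  calc u ⬝ᵥ A *ᵥ v = (A *ᵥ v) ⬝ᵥ u := dotProduct_comm _ _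
    _ = v ⬝ᵥ (Aᵀ *ᵥ u) := by
        rw [mulVec_transpose, dotProduct_comm, dotProduct_comm v, dotProduct_mulVec]
    _ = v ⬝ᵥ A *ᵥ u := by rw [h1]

theorem bcB_nondeg {B : LinearMap.BilinForm F V} (hB : ∀ u, (∀ v, B u v = 0) → u = 0)
    (hs : ∀ u v, B u v = B v u) (u : Fin n → K) (hu : ∀ v, bcB b K B u v = 0) : u = 0 := by
  have h1 : B.Nondegenerate := by
    constructor
    · intro u hu
      exact hB u hu
    · intro u hu
      exact hB u fun v => by rw [hs]; exact hu v
  have h2 : (LinearMap.BilinForm.toMatrix b B).det ≠ 0 := (LinearMap.BilinForm.nondegenerate_iff_det_ne_zero b).1 h1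
  have h3 : ((LinearMap.BilinForm.toMatrix b B).map (algebraMap F K)).det ≠ 0 := by
    have : ((LinearMap.BilinForm.toMatrix b B).map (algebraMap F K)).det =
        algebraMap F K (LinearMap.BilinForm.toMatrix b B).det := ((algebraMap F K).map_det _).symm
    rw [this]
    intro h
    exact h2 ((map_eq_zero _).1 h)
  apply Matrix.eq_zero_of_vecMul_eq_zero h3
  have h4 : ∀ v, (u ᵥ* ((LinearMap.BilinForm.toMatrix b B).map (algebraMap F K))) ⬝ᵥ v = 0 := by
    intro v
    rw [← dotProduct_mulVec, ← bcB_apply]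
    exact hu v
  exact dotProduct_eq_zero _ h4

theorem bcB_adj {B : LinearMap.BilinForm F V} {M L : V →ₗ[F] V} {c : F} (h : ∀ u v, B (M u) v = c * B u (L v))
    (u v : Fin n → K) : bcB b K B (bcE b K M u) v = algebraMap F K c * bcB b K B u (bcE b K L v) := by
  rw [bcB_apply, bcB_apply, bcE_apply, bcE_apply]
  set A := (LinearMap.BilinForm.toMatrix b B) with hA
  set X := LinearMap.toMatrix b b M with hX
  set Y := LinearMap.toMatrix b b L with hY
  have h1 : Xᵀ * A = c • (A * Y) := by
    rw [hX, hY, hA, ← LinearMap.BilinForm.toMatrix_compLeft, ← LinearMap.BilinForm.toMatrix_compRight]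
    ext i j
    rw [Matrix.smul_apply, LinearMap.BilinForm.toMatrix_apply, LinearMap.BilinForm.toMatrix_apply, smul_eq_mul]
    exact h _ _
  have h2 : (X.map (algebraMap F K))ᵀ * A.map (algebraMap F K) =
      algebraMap F K c • (A.map (algebraMap F K) * Y.map (algebraMap F K)) := by
    have h3 := congrArg (fun Z : Matrix (Fin n) (Fin n) F => Z.map (algebraMap F K)) h1
    beta_reduce at h3
    rw [Matrix.map_mul] at h3
    rw [transpose_map] at h3
    rw [h3, ← Matrix.map_mul]
    ext i j
    rw [Matrix.map_apply, Matrix.smul_apply, Matrix.smul_apply, Matrix.map_apply, smul_eq_mul, smul_eq_mul, map_mul]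
  calc (X.map (algebraMap F K) *ᵥ u) ⬝ᵥ A.map (algebraMap F K) *ᵥ v
      = u ⬝ᵥ ((X.map (algebraMap F K))ᵀ * A.map (algebraMap F K)) *ᵥ v := by
        rw [← mulVec_mulVec, dotProduct_mulVec u, vecMul_transpose]
    _ = _ := by
        rw [h2, smul_mulVec, dotProduct_smul, smul_eq_mul, mulVec_mulVec]

end Cfsg.Agent.H64.Co3
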