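import Cfsg.Agent.H754.Co3.Rep

/-!
# S1920, E8-D8: the chain of eigenspaces (helper64)

`Chn ρ B S A A' X X' σ α β` : `S` skew, `A, X` and `A', X'` anticommuting pairs.  `W2` = common eigenspace of `S, A, A'`:
* `Chn.finrank_W` : `dim W2 = 2`;
* `Chn.triv` : an isometry commuting with everything, trivial on `W2`, is trivial;
* `Chn.eigen` : an eigenvalue `l` of an isometry commuting with everything: `l` or `l⁻¹` is an eigenvalue on `W2`;
* `exists_sl'` : a 2-dimensional invariant subspace gives a homomorphism of the commutator subgroup to `SL₂`.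
-/

set_option autoImplicit false

namespace Cfsg.Agent.H64.Co3

open Module Matrix Cfsg.Agent.H754.Co3

section gen

variable {k : Type*} [Field k] {Γ : Type*} [Group Γ] {U : Type*} [AddCommGroup U] [Module k U]
  {ρ : Γ →* (U →ₗ[k] U)}

theorem ev_inv' {g t : Γ} {d : k} {E : Submodule k U} (h : ∀ u, ρ g (ρ t u) = ρ t (ρ g u)) (hE : ∀ u ∈ E, ρ g u ∈ E) :
    ∀ u ∈ ev ρ t d E, ρ g u ∈ ev ρ t d E := by
  intro u hu
  rw [mem_ev] at hu ⊢
  refine ⟨hE u hu.1, ?_⟩
  rw [← h, hu.2, map_smul]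

theorem inv_comm' {g t : Γ} (h : ∀ u, ρ g (ρ t u) = ρ t (ρ g u)) (u : U) : ρ g⁻¹ (ρ t u) = ρ t (ρ g⁻¹ u) := by
  have h1 := h (ρ g⁻¹ u)
  rw [inv_app] at h1
  rw [← h1, app_inv]

/-- eigenvalues on a subspace and on its half -/
theorem anti_eigen {t g : Γ} {d : k} {E : Submodule k U} (h : Anti ρ t d E g) {x : U →ₗ[k] U}
    (hxt : ∀ u, x (ρ t u) = ρ t (x u)) (hxg : ∀ u, x (ρ g⁻¹ u) = ρ g⁻¹ (x u)) {l : k} {u : U} (hu : u ∈ E) (hu0 : u ≠ 0)
    (hx : x u = l • u) : ∃ v ∈ ev ρ t d E, v ≠ 0 ∧ x v = l • v := by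
  have hd := h.dne
  by_cases hv : u + d⁻¹ • ρ t u = 0
  · have h1 : ρ t u = (-d) • u := by
      have h2 := congrArg (fun w => d • w) hv
      beta_reduce at h2
      rw [smul_add, smul_smul, mul_inv_cancel₀ hd, one_smul, smul_zero] at h2
      rw [neg_smul]
      exact eq_neg_of_add_eq_zero_right h2
    have h2 : u ∈ ev ρ t (-d) E := (mem_ev ρ).2 ⟨hu, h1⟩
    refine ⟨ρ g⁻¹ u, h.map_neg' h2, ?_, ?_⟩
    · intro h3
      apply hu0
      rw [← inv_app ρ g u, h3, map_zero]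
    · rw [hxg, hx, map_smul]
  · refine ⟨_, ?_, hv, ?_⟩
    · rw [mem_ev]
      refine ⟨E.add_mem hu (E.smul_mem _ (h.tE u hu)), ?_⟩
      rw [map_add, map_smul, h.sq u hu, smul_smul, smul_add, smul_smul, mul_inv_cancel₀ hd, one_smul,
        inv_mul_cancel_left₀ hd, add_comm]
    · rw [map_add, map_smul, hxt, hx, map_smul, smul_add, smul_comm]

/-- the operators of the chain -/
structure Chn (ρ : Γ →* (U →ₗ[k] U)) (B : LinearMap.BilinForm k U) (S A A' X X' : Γ) (σ α β : k) : Prop where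
  two : (2 : k) ≠ 0
  dim : finrank k U = 16
  nd : ∀ u, (∀ v, B u v = 0) → u = 0
  sym : ∀ u v, B u v = B v u
  σ0 : σ ≠ 0
  α0 : α ≠ 0
  β0 : β ≠ 0
  S2 : ∀ u, ρ S (ρ S u) = (σ * σ) • u
  A2 : ∀ u, ρ A (ρ A u) = (α * α) • u
  A'2 : ∀ u, ρ A' (ρ A' u) = (β * β) • u
  skew : ∀ u v, B (ρ S u) v = - B u (ρ S v)
  SA : ∀ u, ρ A (ρ S u) = ρ S (ρ A u)
  SA' : ∀ u, ρ A' (ρ S u) = ρ S (ρ A' u)
  SX : ∀ u, ρ X (ρ S u) = ρ S (ρ X u)
  SX' : ∀ u, ρ X' (ρ S u) = ρ S (ρ X' u)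
  AA' : ∀ u, ρ A' (ρ A u) = ρ A (ρ A' u)
  AX : ∀ u, ρ A (ρ X u) = - ρ X (ρ A u)
  A'X' : ∀ u, ρ A' (ρ X' u) = - ρ X' (ρ A' u)
  AX' : ∀ u, ρ X' (ρ A u) = ρ A (ρ X' u)

variable {B : LinearMap.BilinForm k U} {S A A' X X' : Γ} {σ α β : k}

/-- the common eigenspace -/
def W2 (ρ : Γ →* (U →ₗ[k] U)) (S A A' : Γ) (σ α β : k) : Submodule k U := ev ρ A' β (ev ρ A α (ev ρ S σ ⊤))

/-- isometries commuting with the chain -/
structure Iso (ρ : Γ →* (U →ₗ[k] U)) (B : LinearMap.BilinForm k U) (S A A' X X' : Γ) (d : Γ) : Prop where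
  dS : ∀ u, ρ d (ρ S u) = ρ S (ρ d u)
  dA : ∀ u, ρ d (ρ A u) = ρ A (ρ d u)
  dA' : ∀ u, ρ d (ρ A' u) = ρ A' (ρ d u)
  dX : ∀ u, ρ d (ρ X u) = ρ X (ρ d u)
  dX' : ∀ u, ρ d (ρ X' u) = ρ X' (ρ d u)
  iso : ∀ u v, B (ρ d u) (ρ d v) = B u v

namespace Chn

variable (h : Chn ρ B S A A' X X' σ α β)

include h

theorem fd : Module.Finite k U := by
  have h1 := h.dim
  exact Module.finite_of_finrank_pos (by omega)

theorem isotropic {u v : U} {l : k} (hl : l ≠ 0) (hu : ρ S u = l • u) (hv : ρ S v = l • v) : B u v = 0 := by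
  have h1 := h.skew u v
  rw [hu, hv, map_smul, LinearMap.smul_apply, map_smul, smul_eq_mul] at h1
  have h2 : (2 : k) * (l * B u v) = 0 := by linear_combination h1
  exact (mul_eq_zero.1 ((mul_eq_zero.1 h2).resolve_left h.two)).resolve_left hl

theorem dec (u : U) : ∃ v w, ρ S v = σ • v ∧ ρ S w = (-σ) • w ∧ u = v + w := by
  have h2 := h.two
  have hd := h.σ0
  have hsq := h.S2 u
  refine ⟨(2 : k)⁻¹ • (u + σ⁻¹ • ρ S u), (2 : k)⁻¹ • (u - σ⁻¹ • ρ S u), ?_, ?_, ?_⟩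
  · rw [map_smul, map_add, map_smul, hsq]
    match_scalars <;> field_simp
  · rw [map_smul, map_sub, map_smul, hsq]
    match_scalars <;> field_simp
  · rw [← smul_add]
    have : u + σ⁻¹ • ρ S u + (u - σ⁻¹ • ρ S u) = (2 : k) • u := by
      rw [two_smul]; abel
    rw [this, smul_smul, inv_mul_cancel₀ h2, one_smul]

theorem finrank_S : finrank k (ev ρ S σ ⊤) = 8 := by
  have hf := h.fd
  have hnd : B.Nondegenerate := by
    constructor
    · intro u hu
      exact h.nd u hu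
    · intro u hu
      exact h.nd u fun v => by rw [h.sym]; exact hu v
  have key : ∀ l : k, l ≠ 0 → finrank k (ev ρ S l ⊤) ≤ 8 := by
    intro l hl
    have h1 := LinearMap.BilinForm.finrank_orthogonal hnd (ev ρ S l ⊤)
    have h2 : ev ρ S l ⊤ ≤ B.orthogonal (ev ρ S l ⊤) := by
      intro u hu v hv
      exact h.isotropic hl ((mem_ev ρ).1 hv).2 ((mem_ev ρ).1 hu).2
    have h3 := Submodule.finrank_mono h2
    rw [h1, h.dim] at h3
    have h4 := Submodule.finrank_le (ev ρ S l ⊤)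
    rw [h.dim] at h4
    omega
  have h1 := key σ h.σ0
  have h2 := key (-σ) (neg_ne_zero.2 h.σ0)
  have h3 := Submodule.finrank_sup_add_finrank_inf_eq (ev ρ S σ ⊤) (ev ρ S (-σ) ⊤)
  have h4 : ev ρ S σ ⊤ ⊔ ev ρ S (-σ) ⊤ = ⊤ := by
    rw [eq_top_iff]
    intro u _
    obtain ⟨v, w, hv, hw, rfl⟩ := h.dec u
    exact Submodule.add_mem_sup ((mem_ev ρ).2 ⟨Submodule.mem_top, hv⟩) ((mem_ev ρ).2 ⟨Submodule.mem_top, hw⟩)
  rw [h4, finrank_top, h.dim] at h3
  omega

theorem anti1 : Anti ρ A α (ev ρ S σ ⊤) X where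
  two := h.two
  dne := h.α0
  sq u _ := h.A2 u
  tE := ev_inv' h.SA fun _ _ => Submodule.mem_top
  gE := ev_inv' h.SX fun _ _ => Submodule.mem_top
  gE' := ev_inv' (inv_comm' h.SX) fun _ _ => Submodule.mem_top
  anti := h.AX

theorem anti2 : Anti ρ A' β (ev ρ A α (ev ρ S σ ⊤)) X' where
  two := h.two
  dne := h.β0
  sq u _ := h.A'2 u
  tE := ev_inv' h.AA' (ev_inv' h.SA' fun _ _ => Submodule.mem_top)
  gE := ev_inv' h.AX' (ev_inv' h.SX' fun _ _ => Submodule.mem_top)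
  gE' := ev_inv' (inv_comm' h.AX') (ev_inv' (inv_comm' h.SX') fun _ _ => Submodule.mem_top)
  anti := h.A'X'

theorem finrank_W : finrank k (W2 ρ S A A' σ α β) = 2 := by
  have hf := h.fd
  have h1 := h.finrank_S
  have h2 := h.anti1.half
  have h3 := h.anti2.half
  rw [W2]
  omega

omit h in
theorem W_inv {d : Γ} (hd : Iso ρ B S A A' X X' d) : ∀ u ∈ W2 ρ S A A' σ α β, ρ d u ∈ W2 ρ S A A' σ α β :=
  ev_inv' hd.dA' (ev_inv' hd.dA (ev_inv' hd.dS fun _ _ => Submodule.mem_top))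

/-- an isometry commuting with the chain, trivial on `W2`, is trivial -/
theorem triv {d : Γ} (hd : Iso ρ B S A A' X X' d) (hW : ∀ u ∈ W2 ρ S A A' σ α β, ρ d u = u) : ρ d = 1 := by
  have h1 : ∀ u ∈ ev ρ S σ ⊤, ρ d u = u := h.anti1.triv (h.anti2.triv hW hd.dX') hd.dX
  have h2 : ∀ u, ρ S u = (-σ) • u → ρ d u = u := by
    intro u hu
    rw [← sub_eq_zero]
    apply h.nd
    intro v
    obtain ⟨v, w, hv, hw, rfl⟩ := h.dec v
    have h3 : ρ S (ρ d u) = (-σ) • ρ d u := by rw [← hd.dS, hu, map_smul]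
    have e1 : B (ρ d u) v = B u v := by
      have := hd.iso u v
      rwa [h1 v ((mem_ev ρ).2 ⟨Submodule.mem_top, hv⟩)] at this
    have e2 : B (ρ d u) w = 0 := h.isotropic (neg_ne_zero.2 h.σ0) h3 hw
    have e3 : B u w = 0 := h.isotropic (neg_ne_zero.2 h.σ0) hu hw
    rw [map_sub, LinearMap.sub_apply, map_add, map_add, e1, e2, e3, sub_self]
  apply LinearMap.ext
  intro u
  obtain ⟨v, w, hv, hw, rfl⟩ := h.dec u
  rw [map_add, h1 v ((mem_ev ρ).2 ⟨Submodule.mem_top, hv⟩), h2 w hw]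
  rfl

/-- **eigenvalues of an isometry commuting with the chain** -/
theorem eigen {d : Γ} (hd : Iso ρ B S A A' X X' d) {l : k} {u : U} (hu : u ≠ 0) (hl : ρ d u = l • u) :
    (∃ v ∈ W2 ρ S A A' σ α β, v ≠ 0 ∧ ρ d v = l • v) ∨ (∃ v ∈ W2 ρ S A A' σ α β, v ≠ 0 ∧ ρ d v = l⁻¹ • v) := by
  have hf := h.fd
  have hl0 : l ≠ 0 := by
    rintro rfl
    apply hu
    rw [← app_inv ρ d u, hl, zero_smul, map_zero]
  have key : ∀ m : k, (∃ v ∈ ev ρ S σ ⊤, v ≠ 0 ∧ ρ d v = m • v) → ∃ v ∈ W2 ρ S A A' σ α β, v ≠ 0 ∧ ρ d v = m • v := by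
    rintro m ⟨v, hv, hv0, hvm⟩
    have hX : ∀ u, ρ d (ρ X⁻¹ u) = ρ X⁻¹ (ρ d u) := fun u => (inv_comm' (fun u => (hd.dX u).symm) u).symm
    have hX' : ∀ u, ρ d (ρ X'⁻¹ u) = ρ X'⁻¹ (ρ d u) := fun u => (inv_comm' (fun u => (hd.dX' u).symm) u).symm
    obtain ⟨w, hw, hw0, hwm⟩ := anti_eigen h.anti1 hd.dA hX hv hv0 hvm
    exact anti_eigen h.anti2 hd.dA' hX' hw hw0 hwm
  by_cases h1 : ∃ v ∈ ev ρ S σ ⊤, v ≠ 0 ∧ ρ d v = l • v
  · exact Or.inl (key l h1)
  right
  apply key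
  by_contra h2
  -- `u` is in the eigenspace of `-σ`
  have hSu : ρ S u = (-σ) • u := by
    by_contra h3
    apply h1
    refine ⟨u + σ⁻¹ • ρ S u, (mem_ev ρ).2 ⟨Submodule.mem_top, ?_⟩, ?_, ?_⟩
    · rw [map_add, map_smul, h.S2, smul_smul, smul_add, smul_smul, mul_inv_cancel₀ h.σ0, one_smul,
        inv_mul_cancel_left₀ h.σ0, add_comm]
    · intro h4
      apply h3
      have h5 := congrArg (fun w => σ • w) h4
      beta_reduce at h5
      rw [smul_add, smul_smul, mul_inv_cancel₀ h.σ0, one_smul, smul_zero] at h5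
      rw [neg_smul]
      exact eq_neg_of_add_eq_zero_right h5
    · rw [map_add, map_smul, hd.dS, hl, map_smul, smul_add, smul_comm]
  have hinv : ∀ v ∈ ev ρ S σ ⊤, (ρ d - l⁻¹ • LinearMap.id : U →ₗ[k] U) v ∈ ev ρ S σ ⊤ := by
    intro v hv
    rw [LinearMap.sub_apply, LinearMap.smul_apply, LinearMap.id_apply]
    exact Submodule.sub_mem _ (ev_inv' hd.dS (fun _ _ => Submodule.mem_top) v hv) (Submodule.smul_mem _ _ hv)
  let T : ev ρ S σ ⊤ →ₗ[k] ev ρ S σ ⊤ := (ρ d - l⁻¹ • LinearMap.id : U →ₗ[k] U).restrict hinv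
  have hTinj : Function.Injective T := by
    rw [injective_iff_map_eq_zero]
    intro v hv
    by_contra hv0
    apply h2
    refine ⟨v, v.2, fun h => hv0 (Subtype.ext h), ?_⟩
    have h3 := congrArg Subtype.val hv
    have h4 : ρ d v - l⁻¹ • (v : U) = 0 := h3
    exact sub_eq_zero.1 h4
  have hTsurj : Function.Surjective T := LinearMap.injective_iff_surjective.1 hTinj
  apply hu
  apply h.nd
  intro w
  obtain ⟨v, w, hv, hw, rfl⟩ := h.dec w
  have e1 : B u w = 0 := h.isotropic (neg_ne_zero.2 h.σ0) hSu hw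
  obtain ⟨⟨v', hv'⟩, h4⟩ := hTsurj ⟨v, (mem_ev ρ).2 ⟨Submodule.mem_top, hv⟩⟩
  have h5 : ρ d v' - l⁻¹ • v' = v := congrArg Subtype.val h4
  have h6 := hd.iso u v'
  rw [hl, map_smul, LinearMap.smul_apply, smul_eq_mul] at h6
  have e2 : B u v = 0 := by
    rw [← h5, map_sub, map_smul, smul_eq_mul, ← h6, inv_mul_cancel_left₀ hl0, sub_self]
  rw [map_add, e1, e2, add_zero]

end Chn

/-- a 2-dimensional invariant subspace gives a homomorphism of the commutator subgroup to `SL₂` -/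
theorem exists_sl' {D : Type*} [Group D] (ρ : D →* (U →ₗ[k] U)) (W : Submodule k U) (hW : finrank k W = 2)
    (hinv : ∀ d, ∀ u ∈ W, ρ d u ∈ W) :
    ∃ f : ↥(_root_.commutator D) →* SpecialLinearGroup (Fin 2) k, (∀ d, f d = 1 → ∀ u ∈ W, ρ d u = u) ∧
      ∀ (d : ↥(_root_.commutator D)) (l : k), (∃ u ∈ W, u ≠ 0 ∧ ρ d u = l • u) ↔
        l * l - (f d : Matrix (Fin 2) (Fin 2) k).trace * l + 1 = 0 := by
  have hfin : Module.Finite k W := Module.finite_of_finrank_pos (by omega)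
  let B := finBasisOfFinrankEq k W hW
  let r : D →* (W →ₗ[k] W) :=
    { toFun := fun d => (ρ d).restrict (hinv d)
      map_one' := by
        apply LinearMap.ext
        intro u
        apply Subtype.ext
        change ρ 1 u = u
        rw [map_one]
        rfl
      map_mul' := fun d e => by
        apply LinearMap.ext
        intro u
        apply Subtype.ext
        change ρ (d * e) u = ρ d (ρ e u)
        rw [map_mul]
        rfl }
  let φ : D →* Matrix (Fin 2) (Fin 2) k :=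
    ((LinearMap.toMatrixAlgEquiv B : (W →ₗ[k] W) ≃ₐ[k] Matrix (Fin 2) (Fin 2) k) : (W →ₗ[k] W) →* _).comp r
  have hφ : ∀ d, φ d = LinearMap.toMatrixAlgEquiv B (r d) := fun _ => rfl
  let δ : D →* kˣ := (Matrix.detMonoidHom.comp φ).toHomUnits
  have hδ : ∀ d : ↥(_root_.commutator D), (φ d).det = 1 := by
    intro d
    have h1 : (d : D) ∈ δ.ker := Abelianization.commutator_subset_ker δ d.2
    have h2 : ((δ (d : D) : kˣ) : k) = (φ d).det := rfl
    rw [← h2, MonoidHom.mem_ker.1 h1, Units.val_one]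
  refine ⟨{ toFun := fun d => ⟨φ d, hδ d⟩
            map_one' := Subtype.ext (by
              change φ ((1 : ↥(_root_.commutator D)) : D) = 1
              rw [OneMemClass.coe_one, map_one])
            map_mul' := fun d e => Subtype.ext (by
              change φ ((d * e : ↥(_root_.commutator D)) : D) = φ d * φ e
              rw [Subgroup.coe_mul, map_mul]) }, fun d hd u hu => ?_, fun d l => ?_⟩
  · have h1 : φ d = 1 := congrArg Subtype.val hd
    rw [hφ] at h1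
    have h2 : r d = 1 := by
      apply (LinearMap.toMatrixAlgEquiv B).injective
      rw [h1, map_one]
    have h3 := LinearMap.congr_fun h2 ⟨u, hu⟩
    exact congrArg Subtype.val h3
  · have hdet := hδ d
    change _ ↔ l * l - (φ d).trace * l + 1 = 0
    have h1 : (φ d - l • (1 : Matrix (Fin 2) (Fin 2) k)).det = l * l - (φ d).trace * l + 1 := by
      rw [det_fin_two] at hdet
      rw [det_fin_two, trace_fin_two]
      simp only [Matrix.sub_apply, Matrix.smul_apply, one_apply_eq, ne_eq, one_ne_zero, zero_ne_one,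
        not_false_eq_true, one_apply_ne, smul_eq_mul, mul_one, mul_zero, sub_zero]
      linear_combination hdet
    rw [← h1, ← Matrix.exists_mulVec_eq_zero_iff]
    have h2 : ∀ w : W, B.repr (r d w) = φ d *ᵥ (B.repr w) := by
      intro w
      rw [hφ]
      exact (LinearMap.toMatrix_mulVec_repr B B (r d) w).symm
    constructor
    · rintro ⟨u, hu, hu0, hul⟩
      refine ⟨B.repr ⟨u, hu⟩, ?_, ?_⟩
      · intro h3
        apply hu0
        have h4 : B.repr ⟨u, hu⟩ = 0 := by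
          ext i
          exact congrFun h3 i
        have h5 : (⟨u, hu⟩ : W) = 0 := by rwa [LinearEquiv.map_eq_zero_iff] at h4
        exact congrArg Subtype.val h5
      · have h3 : r d ⟨u, hu⟩ = l • (⟨u, hu⟩ : W) := Subtype.ext hul
        rw [sub_mulVec, smul_mulVec, one_mulVec, ← h2, h3, map_smul]
        ext i
        simp
    · rintro ⟨v, hv, hv0⟩
      have hw : ∃ w : W, (B.repr w : Fin 2 → k) = v := ⟨B.equivFun.symm v, by
        rw [← B.equivFun_apply, LinearEquiv.apply_symm_apply]⟩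
      obtain ⟨w, rfl⟩ := hw
      refine ⟨w, w.2, ?_, ?_⟩
      · intro h3
        apply hv
        have h4 : w = 0 := Subtype.ext h3
        rw [h4, map_zero]
        rfl
      · rw [sub_mulVec, smul_mulVec, one_mulVec, ← h2, sub_eq_zero] at hv0
        have h3 : r d w = l • w := by
          apply B.repr.injective
          ext i
          rw [map_smul]
          exact congrFun hv0 i
        exact congrArg Subtype.val h3

end gen

end Cfsg.Agent.H64.Co3
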