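import Cfsg.Agent.H64.Co3.Rad
import Cfsg.Agent.H64.Co3.BC
import Cfsg.Agent.H64.Co3.Chain
import Cfsg.Agent.H754.Co3.Five

/-!
# S1920, E8-D8, the case where two lifts of elements of `N0` do not commute (helper64)
-/

set_option autoImplicit false

open Subgroup QuadraticMap

namespace Cfsg.Agent.H64.Co3

open Cfsg.Agent.LieClassical.OrthCore Cfsg.Agent.H13.Co3 Cfsg.Agent.H754.Co3 Module Matrix

variable {F V G : Type*} [Field F] [AddCommGroup V] [Module F V] [Group G] {Q : QuadraticForm F V}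
  {P N0 : Subgroup G} {z s : G} {ψ : ↥(normalizer (P : Set G)) →* Equiv.Perm (Fin 6)}
  {R : G → (V ≃ₗ[F] V) → Prop}

/-- the lifts of `C(N0)` -/
def DD (C : CB P N0 z s ψ) (T : D8I Q z R) : Subgroup (G × (V ≃ₗ[F] V)) where
  carrier := {d | (∀ n ∈ N0, d.1 * n = n * d.1) ∧ R d.1 d.2}
  one_mem' := ⟨fun n _ => by simp, T.R_one⟩
  mul_mem' := by
    rintro ⟨a, A⟩ ⟨b, B⟩ ⟨ha, hA⟩ ⟨hb, hB⟩
    refine ⟨fun n hn => ?_, T.mul hA hB⟩
    show a * b * n = n * (a * b)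
    rw [mul_assoc, hb n hn, ← mul_assoc, ha n hn, mul_assoc]
  inv_mem' := by
    rintro ⟨a, A⟩ ⟨ha, hA⟩
    refine ⟨fun n hn => ?_, T.inv (ha z (C.PN C.zP)) hA⟩
    show a⁻¹ * n = n * a⁻¹
    rw [inv_mul_eq_iff_eq_mul, ← mul_assoc, ha n hn, mul_inv_cancel_right]

/-- isometric lifts commuting with the lifts of `N0` -/
def DI (C : CB P N0 z s ψ) (T : D8I Q z R) : Subgroup (G × (V ≃ₗ[F] V)) where
  carrier := {d | d ∈ DD C T ∧ (∀ n ∈ N0, ∀ M, R n M → ∀ v, d.2 (M v) = M (d.2 v)) ∧ ∀ v, Q (d.2 v) = Q v}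
  one_mem' := ⟨(DD C T).one_mem, fun _ _ _ _ _ => rfl, fun _ => rfl⟩
  mul_mem' := by
    rintro ⟨a, A⟩ ⟨b, B⟩ ⟨h1, h2, h3⟩ ⟨h1', h2', h3'⟩
    refine ⟨(DD C T).mul_mem h1 h1', fun n hn M hM v => ?_, fun v => ?_⟩
    · show A (B (M v)) = M (A (B v))
      have e1 : B (M v) = M (B v) := h2' n hn M hM v
      rw [e1]
      exact h2 n hn M hM _
    · show Q (A (B v)) = Q v
      have e1 : Q (B v) = Q v := h3' v
      rw [← e1]
      exact h3 (B v)
  inv_mem' := by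
    rintro ⟨a, A⟩ ⟨h1, h2, h3⟩
    refine ⟨(DD C T).inv_mem h1, fun n hn M hM v => ?_, fun v => ?_⟩
    · show A.symm (M v) = M (A.symm v)
      rw [LinearEquiv.symm_apply_eq]
      have e1 : A (M (A.symm v)) = M (A (A.symm v)) := h2 n hn M hM _
      rw [e1, A.apply_symm_apply]
    · show Q (A.symm v) = Q v
      have e1 : Q (A (A.symm v)) = Q (A.symm v) := h3 _
      rw [← e1, A.apply_symm_apply]

theorem DI_le (C : CB P N0 z s ψ) (T : D8I Q z R) : DI C T ≤ DD C T := fun _ h => h.1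

/-- elements over `C(N0)` commute with the lifts of `N0` up to scalars -/
theorem DD_comm (T : D8I Q z R) {g n : G} {L M : V ≃ₗ[F] V} (h : g * n = n * g)
    (hL : R g L) (hM : R n M) : ∃ c : F, c ≠ 0 ∧ ∀ v, L (M v) = c • M (L v) := by
  have h1 := T.mul hL hM
  have h2 := T.mul hM hL
  rw [← h] at h2
  exact T.uniq h2 h1

/-- commutators are isometries commuting with the lifts of `N0` -/
theorem comm_mem_DI (C : CB P N0 z s ψ) (T : D8I Q z R) {d e : G × (V ≃ₗ[F] V)} (hd : d ∈ DD C T)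
    (he : e ∈ DD C T) : d * e * d⁻¹ * e⁻¹ ∈ DI C T := by
  refine ⟨mul_mem (mul_mem (mul_mem hd he) (inv_mem hd)) (inv_mem he), fun n hn M hM v => ?_, fun v => ?_⟩
  · obtain ⟨c, hc, h1⟩ := DD_comm T (hd.1 n hn) hd.2 hM
    obtain ⟨c', hc', h2⟩ := DD_comm T (he.1 n hn) he.2 hM
    have h1' : ∀ v, d.2.symm (M v) = c⁻¹ • M (d.2.symm v) := by
      intro v
      rw [LinearEquiv.symm_apply_eq, map_smul, h1, smul_smul, inv_mul_cancel₀ hc, one_smul, d.2.apply_symm_apply]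
    have h2' : ∀ v, e.2.symm (M v) = c'⁻¹ • M (e.2.symm v) := by
      intro v
      rw [LinearEquiv.symm_apply_eq, map_smul, h2, smul_smul, inv_mul_cancel₀ hc', one_smul, e.2.apply_symm_apply]
    show d.2 (e.2 (d.2.symm (e.2.symm (M v)))) = M (d.2 (e.2 (d.2.symm (e.2.symm v))))
    rw [h2', map_smul, h1', map_smul, map_smul, map_smul, map_smul, h2, map_smul, h1]
    rw [smul_smul, smul_smul, smul_smul]
    have : c'⁻¹ * c⁻¹ * c' * c = 1 := by field_simp
    rw [this, one_smul]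
  · obtain ⟨μ, hμ, h1⟩ := T.sim hd.2
    obtain ⟨ν, hν, h2⟩ := T.sim he.2
    have h1' : ∀ v, Q (d.2.symm v) = μ⁻¹ * Q v := by
      intro v
      have := h1 (d.2.symm v)
      rw [d.2.apply_symm_apply] at this
      rw [this, inv_mul_cancel_left₀ hμ]
    have h2' : ∀ v, Q (e.2.symm v) = ν⁻¹ * Q v := by
      intro v
      have := h2 (e.2.symm v)
      rw [e.2.apply_symm_apply] at this
      rw [this, inv_mul_cancel_left₀ hν]
    show Q (d.2 (e.2 (d.2.symm (e.2.symm v)))) = Q v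
    rw [h1, h2, h1', h2']
    field_simp

/-- the homomorphism to `N_G(P)` -/
def toH (C : CB P N0 z s ψ) (T : D8I Q z R) : ↥(DD C T) →* ↥(normalizer (P : Set G)) where
  toFun d := ⟨d.1.1, C.key fun n hn => Or.inl (d.2.1 n hn)⟩
  map_one' := rfl
  map_mul' _ _ := rfl

theorem sign_toH (C : CB P N0 z s ψ) (T : D8I Q z R) (d : ↥(DD C T)) : Equiv.Perm.sign (ψ (toH C T d)) = 1 := by
  have hg := comm_le_AA C d.2.1
  exact (C.inv_s (toH C T d) (normN C hg)).2 (d.2.1 s C.sN)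

theorem onto_toH (C : CB P N0 z s ψ) (T : D8I Q z R) (π : Equiv.Perm (Fin 6)) (hπ : Equiv.Perm.sign π = 1) :
    ∃ d : ↥(DD C T), ψ (toH C T d) = π := by
  obtain ⟨h, hh, hπ'⟩ := C.even π hπ
  obtain ⟨M, hM⟩ := T.ex (h : G) (hh z (C.PN C.zP))
  exact ⟨⟨(h, M), hh, hM⟩, hπ'⟩

/-- the action on six points -/
def psiI (C : CB P N0 z s ψ) (T : D8I Q z R) : ↥(DI C T) →* Equiv.Perm (Fin 6) :=
  (ψ.comp (toH C T)).comp (inclusion (DI_le C T))

theorem psiI_apply (C : CB P N0 z s ψ) (T : D8I Q z R) (d : ↥(DI C T)) :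
    psiI C T d = ψ (toH C T ⟨d, DI_le C T d.2⟩) := rfl

theorem onto_DI (C : CB P N0 z s ψ) (T : D8I Q z R) (π : Equiv.Perm (Fin 6)) (hπ : Equiv.Perm.sign π = 1) :
    ∃ d : ↥(DI C T), psiI C T d = π := by
  obtain ⟨⟨d, hd⟩, h1⟩ := commutator_onto (ψ.comp (toH C T)) (sign_toH C T) (onto_toH C T) π hπ
  have h2 : _root_.commutator ↥(DD C T) ≤ (DI C T).comap (DD C T).subtype := by
    rw [commutator_def, commutator_le]
    intro a _ b _
    exact comm_mem_DI C T a.2 b.2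
  exact ⟨⟨d, h2 hd⟩, h1⟩

/-- the action of the commutator subgroup on six points -/
def phiI (C : CB P N0 z s ψ) (T : D8I Q z R) : ↥(_root_.commutator ↥(DI C T)) →* Equiv.Perm (Fin 6) :=
  (psiI C T).comp (_root_.commutator ↥(DI C T)).subtype

theorem phiI_apply (C : CB P N0 z s ψ) (T : D8I Q z R) (d : ↥(_root_.commutator ↥(DI C T))) :
    phiI C T d = psiI C T d := rfl

theorem sign_psiI (C : CB P N0 z s ψ) (T : D8I Q z R) (d : ↥(DI C T)) : Equiv.Perm.sign (psiI C T d) = 1 := by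
  rw [psiI_apply]
  exact sign_toH C T _

theorem onto_phiI (C : CB P N0 z s ψ) (T : D8I Q z R) (π : Equiv.Perm (Fin 6)) (hπ : Equiv.Perm.sign π = 1) :
    ∃ d, phiI C T d = π := by
  obtain ⟨d, hd⟩ := commutator_onto (psiI C T) (sign_psiI C T) (onto_DI C T) π hπ
  exact ⟨d, by rw [phiI_apply]; exact hd⟩

theorem ker_phiI (C : CB P N0 z s ψ) (T : D8I Q z R) (d : ↥(_root_.commutator ↥(DI C T)))
    (h : ((d : ↥(DI C T)) : G × (V ≃ₗ[F] V)).2 = 1) : phiI C T d = 1 := by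
  rw [phiI_apply, psiI_apply]
  have h5 : R ((d : ↥(DI C T)) : G × (V ≃ₗ[F] V)).1 1 := by
    have h6 := (d : ↥(DI C T)).2.1.2
    rwa [h] at h6
  have hgN : ((d : ↥(DI C T)) : G × (V ≃ₗ[F] V)).1 ∈ N0 := by
    rcases (T.one _).1 h5 with h | h
    · rw [h]; exact N0.one_mem
    · rw [h]; exact C.PN C.zP
  exact C.psi_N _ hgN

/-- the group of isometric lifts is normalised by the lifts of `N(N0)` -/
theorem conj_mem_DI (C : CB P N0 z s ψ) (T : D8I Q z R) {r : G} {M : V ≃ₗ[F] V} (hr : r ∈ normalizer (N0 : Set G))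
    (hrz : r * z = z * r) (hM : R r M) {d : G × (V ≃ₗ[F] V)} (hd : d ∈ DI C T) :
    (r, M) * d * (r, M)⁻¹ ∈ DI C T := by
  have hMi := T.inv hrz hM
  have hr' : r⁻¹ ∈ normalizer (N0 : Set G) := inv_mem hr
  refine ⟨⟨conj_comm hr hd.1.1, T.mul (T.mul hM hd.1.2) hMi⟩, fun n hn L hL v => ?_, fun v => ?_⟩
  · have hn' : r⁻¹ * n * r ∈ N0 := by
      have h1 := (mem_normalizer_iff.1 hr' n).1 hn
      rwa [inv_inv] at h1
    have h2 := hd.2.1 _ hn' _ (T.mul (T.mul hMi hL) hM) (M.symm v)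
    have h3 : d.2 (M.symm (L (M (M.symm v)))) = M.symm (L (M (d.2 (M.symm v)))) := h2
    show M (d.2 (M.symm (L v))) = L (M (d.2 (M.symm v)))
    rw [M.apply_symm_apply] at h3
    rw [h3, M.apply_symm_apply]
  · obtain ⟨μ, hμ, h1⟩ := T.sim hM
    show Q (M (d.2 (M.symm v))) = Q v
    rw [h1, hd.2.2, ← h1, M.apply_symm_apply]

section rep

variable {b : Basis (Fin 16) F V} {K : Type*} [Field K] [Algebra F K]

/-- the representation over `K` -/
noncomputable def rho (G : Type*) [Group G] (b : Basis (Fin 16) F V) (K : Type*) [Field K] [Algebra F K] :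
    G × (V ≃ₗ[F] V) →* ((Fin 16 → K) →ₗ[K] (Fin 16 → K)) :=
  ((bcE b K).toMonoidHom.comp LinearEquiv.automorphismGroup.toLinearMapMonoidHom).comp (MonoidHom.snd G (V ≃ₗ[F] V))

theorem rho_apply (d : G × (V ≃ₗ[F] V)) : rho G b K d = bcE b K (d.2 : V →ₗ[F] V) := rfl

theorem rho_rel {d e : G × (V ≃ₗ[F] V)} {c : F} (h : ∀ v, d.2 (e.2 v) = c • e.2 (d.2 v)) (u : Fin 16 → K) :
    rho G b K d (rho G b K e u) = algebraMap F K c • rho G b K e (rho G b K d u) := by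
  have h1 : (d.2 : V →ₗ[F] V) * (e.2 : V →ₗ[F] V) = c • ((e.2 : V →ₗ[F] V) * (d.2 : V →ₗ[F] V)) := by
    apply LinearMap.ext
    intro v
    exact h v
  have h2 := congrArg (bcE b K) h1
  rw [map_mul, bcE_smul, map_mul] at h2
  exact LinearMap.congr_fun h2 u

theorem rho_comm {d e : G × (V ≃ₗ[F] V)} (h : ∀ v, d.2 (e.2 v) = e.2 (d.2 v)) (u : Fin 16 → K) :
    rho G b K d (rho G b K e u) = rho G b K e (rho G b K d u) := by
  have h1 := rho_rel (b := b) (K := K) (d := d) (e := e) (c := 1) (fun v => by rw [h, one_smul]) u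
  rwa [map_one, one_smul] at h1

theorem rho_anti {d e : G × (V ≃ₗ[F] V)} (h : ∀ v, d.2 (e.2 v) = - e.2 (d.2 v)) (u : Fin 16 → K) :
    rho G b K d (rho G b K e u) = - rho G b K e (rho G b K d u) := by
  have h1 := rho_rel (b := b) (K := K) (d := d) (e := e) (c := -1) (fun v => by rw [h, neg_one_smul]) u
  rwa [map_neg, map_one, neg_one_smul] at h1

theorem rho_sq {d : G × (V ≃ₗ[F] V)} {c : F} {γ : K} (hγ : algebraMap F K c = γ * γ) (h : ∀ v, d.2 (d.2 v) = c • v)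
    (u : Fin 16 → K) : rho G b K d (rho G b K d u) = (γ * γ) • u := by
  have h1 : (d.2 : V →ₗ[F] V) * (d.2 : V →ₗ[F] V) = c • 1 := by
    apply LinearMap.ext
    intro v
    exact h v
  have h2 := congrArg (bcE b K) h1
  rw [map_mul, bcE_smul, map_one, hγ] at h2
  exact LinearMap.congr_fun h2 u

theorem rho_iso (T : D8I Q z R) {d : G × (V ≃ₗ[F] V)} (h : ∀ v, Q (d.2 v) = Q v) (u v : Fin 16 → K) :
    bcB b K (polarBilin Q) (rho G b K d u) (rho G b K d v) = bcB b K (polarBilin Q) u v := by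
  have h1 : ∀ u v, polarBilin Q ((d.2 : V →ₗ[F] V) u) v = 1 * polarBilin Q u ((d⁻¹.2 : V →ₗ[F] V) v) := by
    intro u v
    rw [one_mul]
    show polar Q (d.2 u) v = polar Q u (d.2.symm v)
    obtain ⟨w, rfl⟩ := d.2.surjective v
    rw [d.2.symm_apply_apply, polar_of_sim (μ := 1) (fun v => by rw [h, one_mul]), one_mul]
  rw [rho_apply, bcB_adj b K h1, map_one, one_mul, ← rho_apply (G := G) (b := b) (K := K) d,
    ← rho_apply (G := G) (b := b) (K := K) d⁻¹, app_inv]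

end rep

/-- **the homomorphism to `SL₂`** -/
theorem exists_f [FiniteDimensional F V] [Finite G] (C : CB P N0 z s ψ) (T : D8I Q z R)
    (tab : TabI N0 Q z R) {n0 m0 : G} (hn0 : n0 ∈ N0) (hm0 : m0 ∈ N0) (h0 : ¬ cm R n0 m0)
    (b : Basis (Fin 16) F V) (K : Type*) [Field K] [Algebra F K] [IsAlgClosed K] :
    ∃ f : ↥(_root_.commutator ↥(DI C T)) →* SpecialLinearGroup (Fin 2) K,
      (∀ d : ↥(_root_.commutator ↥(DI C T)), f d = 1 → rho G b K ((d : ↥(DI C T)) : G × (V ≃ₗ[F] V)) = 1) ∧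
      (∀ (d : ↥(_root_.commutator ↥(DI C T))) (l : K), l * l - (f d : Matrix (Fin 2) (Fin 2) K).trace * l + 1 = 0 →
        ∃ u, u ≠ 0 ∧ rho G b K ((d : ↥(DI C T)) : G × (V ≃ₗ[F] V)) u = l • u) ∧
      (∀ (d : ↥(_root_.commutator ↥(DI C T))) (l : K) u, u ≠ 0 → rho G b K ((d : ↥(DI C T)) : G × (V ≃ₗ[F] V)) u = l • u →
        l * l - (f d : Matrix (Fin 2) (Fin 2) K).trace * l + 1 = 0) := by
  let ρ : G × (V ≃ₗ[F] V) →* ((Fin 16 → K) →ₗ[K] (Fin 16 → K)) := rho G b K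
  let B : LinearMap.BilinForm K (Fin 16 → K) := bcB b K (polarBilin Q)
  -- the frame
  obtain ⟨a, ha, a', ha', x, hx, x', hx', haa, haa', hab, hax, hax', hax'', ha'x'⟩ := exists_frame C
  obtain ⟨Ms, hMs⟩ := T.ex s (nz C C.sN)
  obtain ⟨Ma, hMa⟩ := T.ex a (nz C ha)
  obtain ⟨Ma', hMa'⟩ := T.ex a' (nz C ha')
  obtain ⟨Mx, hMx⟩ := T.ex x (nz C hx)
  obtain ⟨Mx', hMx'⟩ := T.ex x' (nz C hx')
  obtain ⟨ls, hls, hs2⟩ := exists_sq C T C.sN hMs
  obtain ⟨la, hla, ha2⟩ := exists_sq C T ha hMa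
  obtain ⟨la', hla', ha2'⟩ := exists_sq C T ha' hMa'
  obtain ⟨σ, hσ⟩ := IsAlgClosed.exists_eq_mul_self (algebraMap F K ls)
  obtain ⟨α, hα⟩ := IsAlgClosed.exists_eq_mul_self (algebraMap F K la)
  obtain ⟨β, hβ⟩ := IsAlgClosed.exists_eq_mul_self (algebraMap F K la')
  have cm_of : ∀ {n m : G} {M L : V ≃ₗ[F] V}, n ∈ N0 → m ∈ N0 → R n M → R m L → n * m = m * n →
      ∀ v, M (L v) = L (M v) := fun hn hm hM hL h =>
    (cm_iff T hM hL).1 ((cm_iff_comm C T tab hn0 hm0 h0 hn hm).2 h)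
  have anti_of' : ∀ {n m : G} {M L : V ≃ₗ[F] V}, n ∈ N0 → m ∈ N0 → R n M → R m L → n * m = z * (m * n) →
      ∀ v, M (L v) = - L (M v) := fun {n m M L} hn hm hM hL h =>
    anti_of_not_cm C T hn hm (fun h' => by
      have h1 := (cm_iff_comm C T tab hn0 hm0 h0 hn hm).1 h'
      rw [h1] at h
      exact C.z_ne (mul_eq_right.1 h.symm)) hM hL
  have h2K : (2 : K) ≠ 0 := by
    intro h
    apply T.two
    apply (algebraMap F K).injective
    rw [map_zero, ← h, map_ofNat]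
  have ne0 : ∀ {c : F} {γ : K}, c ≠ 0 → algebraMap F K c = γ * γ → γ ≠ 0 := by
    rintro c γ hc h rfl
    rw [mul_zero] at h
    exact hc ((map_eq_zero _).1 h)
  have hch : Chn ρ B (s, Ms) (a, Ma) (a', Ma') (x, Mx) (x', Mx') σ α β :=
    { two := h2K
      dim := by rw [finrank_pi, Fintype.card_fin]
      nd := fun u hu => bcB_nondeg b K (fun u hu => T.nondeg u hu) (fun u v => polar_comm Q u v) u hu
      sym := fun u v => bcB_symm b K (fun u v => polar_comm Q u v) u v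
      σ0 := ne0 hls hσ
      α0 := ne0 hla hα
      β0 := ne0 hla' hβ
      S2 := rho_sq hσ hs2
      A2 := rho_sq hα ha2
      A'2 := rho_sq hβ ha2'
      skew := fun u v => by
        have h1 := bcB_adj b K (B := polarBilin Q) (M := (Ms : V →ₗ[F] V)) (L := (Ms : V →ₗ[F] V)) (c := -1)
          (fun u v => by
            rw [neg_one_mul]
            exact sk_of_not_sa C T C.sN (not_sa_s C T tab hn0 hm0 h0) hMs u v) u v
        rw [map_neg, map_one, neg_one_mul] at h1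
        exact h1
      SA := rho_comm (cm_of ha C.sN hMa hMs (C.s_cen a ha))
      SA' := rho_comm (cm_of ha' C.sN hMa' hMs (C.s_cen a' ha'))
      SX := rho_comm (cm_of hx C.sN hMx hMs (C.s_cen x hx))
      SX' := rho_comm (cm_of hx' C.sN hMx' hMs (C.s_cen x' hx'))
      AA' := rho_comm (cm_of ha' ha hMa' hMa hab.symm)
      AX := rho_anti (anti_of' ha hx hMa hMx hax)
      A'X' := rho_anti (anti_of' ha' hx' hMa' hMx' ha'x')
      AX' := rho_comm (cm_of hx' ha hMx' hMa hax''.symm) }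
  have hiso : ∀ d ∈ DI C T, Iso ρ B (s, Ms) (a, Ma) (a', Ma') (x, Mx) (x', Mx') d := fun d hd =>
    { dS := rho_comm (hd.2.1 s C.sN Ms hMs)
      dA := rho_comm (hd.2.1 a ha Ma hMa)
      dA' := rho_comm (hd.2.1 a' ha' Ma' hMa')
      dX := rho_comm (hd.2.1 x hx Mx hMx)
      dX' := rho_comm (hd.2.1 x' hx' Mx' hMx')
      iso := rho_iso T hd.2.2 }
  -- the homomorphism to `SL₂`
  obtain ⟨f, hf1, hf2⟩ := exists_sl' (ρ.comp (DI C T).subtype) (W2 ρ (s, Ms) (a, Ma) (a', Ma') σ α β) hch.finrank_W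
    (fun d => Chn.W_inv (hiso d.1 d.2))
  refine ⟨f, fun d hd => ?_, fun d l hl => ?_, fun d l u hu0 hu => ?_⟩
  · exact hch.triv (hiso _ (d : ↥(DI C T)).2) (hf1 _ hd)
  · obtain ⟨u, -, hu0, hul⟩ := (hf2 d l).2 hl
    exact ⟨u, hu0, hul⟩
  · rcases hch.eigen (hiso _ (d : ↥(DI C T)).2) hu0 hu with ⟨v, hv, hv0, hvl⟩ | ⟨v, hv, hv0, hvl⟩
    · exact (hf2 d l).1 ⟨v, hv, hv0, hvl⟩
    · have h4 := (hf2 d l⁻¹).1 ⟨v, hv, hv0, hvl⟩
      have hl1 : l ≠ 0 := by
        rintro rfl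
        apply hu0
        rw [← app_inv ρ (d : ↥(DI C T)).1 u, hu, zero_smul, map_zero]
      have h5 : l * l * (l⁻¹ * l⁻¹ - (f d : Matrix (Fin 2) (Fin 2) K).trace * l⁻¹ + 1) = 0 := by rw [h4, mul_zero]
      have h6 : l * l⁻¹ = 1 := mul_inv_cancel₀ hl1
      linear_combination h5 - (l * l⁻¹ + 1 - (f d : Matrix (Fin 2) (Fin 2) K).trace * l) * h6

/-- conjugation by a lift of an element of `N(N0)` -/
def cjI (C : CB P N0 z s ψ) (T : D8I Q z R) {r : G} {M : V ≃ₗ[F] V} (hr : r ∈ normalizer (N0 : Set G))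
    (hrz : r * z = z * r) (hM : R r M) : ↥(DI C T) →* ↥(DI C T) where
  toFun d := ⟨(r, M) * d.1 * (r, M)⁻¹, conj_mem_DI C T hr hrz hM d.2⟩
  map_one' := Subtype.ext (by
    show (r, M) * 1 * (r, M)⁻¹ = 1
    rw [mul_one, mul_inv_cancel])
  map_mul' d e := Subtype.ext (by
    show (r, M) * (d.1 * e.1) * (r, M)⁻¹ = (r, M) * d.1 * (r, M)⁻¹ * ((r, M) * e.1 * (r, M)⁻¹)
    group)

theorem cjI_coe (C : CB P N0 z s ψ) (T : D8I Q z R) {r : G} {M : V ≃ₗ[F] V} (hr : r ∈ normalizer (N0 : Set G))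
    (hrz : r * z = z * r) (hM : R r M) (d : ↥(DI C T)) :
    (cjI C T hr hrz hM d : G × (V ≃ₗ[F] V)) = (r, M) * d * (r, M)⁻¹ := rfl

/-- a homomorphism maps the commutator subgroup to itself -/
theorem hom_comm {D : Type*} [Group D] (h : D →* D) (d : ↥(_root_.commutator D)) : h d ∈ _root_.commutator D := by
  have h1 : (_root_.commutator D).map h ≤ _root_.commutator D := by
    rw [commutator_def, map_commutator]
    exact commutator_mono le_top le_top
  exact h1 ⟨_, d.2, rfl⟩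

theorem psiI_cj (C : CB P N0 z s ψ) (T : D8I Q z R) {r : G} {M : V ≃ₗ[F] V} (hr : r ∈ normalizer (N0 : Set G))
    (hrP : r ∈ normalizer (P : Set G)) (hrz : r * z = z * r) (hM : R r M) (d : ↥(DI C T)) :
    psiI C T (cjI C T hr hrz hM d) = ψ ⟨r, hrP⟩ * psiI C T d * (ψ ⟨r, hrP⟩)⁻¹ := by
  rw [psiI_apply, psiI_apply, ← map_inv, ← map_mul, ← map_mul]
  rfl

theorem quad_ne {k : Type*} [Field k] {l t : k} (h : l * l - t * l + 1 = 0) : l ≠ 0 := by
  rintro rfl
  rw [mul_zero, mul_zero, sub_zero, zero_add] at h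
  exact one_ne_zero h

theorem quad_eq {k : Type*} [Field k] {l t t' : k} (h : l * l - t * l + 1 = 0) (h' : l * l - t' * l + 1 = 0) :
    t = t' := by
  have h4 : (t' - t) * l = 0 := by linear_combination h - h'
  exact (sub_eq_zero.1 ((mul_eq_zero.1 h4).resolve_right (quad_ne h))).symm

theorem quad_ex {k : Type*} [Field k] [IsAlgClosed k] (h2 : (2 : k) ≠ 0) (t : k) : ∃ l, l * l - t * l + 1 = 0 := by
  obtain ⟨e, he⟩ := IsAlgClosed.exists_eq_mul_self (t * t - 4)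
  refine ⟨(t + e) / 2, ?_⟩
  field_simp
  linear_combination -he

/-- **Case `c ≠ 0`** : the lifts of the elements of `N0` all commute. -/
theorem d8_anti [Finite F] [FiniteDimensional F V] [Finite G] (C : CB P N0 z s ψ) (T : D8I Q z R)
    (tab : TabI N0 Q z R) {n0 m0 : G} (hn0 : n0 ∈ N0) (hm0 : m0 ∈ N0) (h0 : ¬ cm R n0 m0) : False := by
  have hV : Finite V := Module.finite_of_finite F
  have hGL : Finite (V ≃ₗ[F] V) := DFunLike.finite _
  let b : Basis (Fin 16) F V := finBasisOfFinrankEq F V T.dim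
  have h2K : (2 : AlgebraicClosure F) ≠ 0 := by
    intro h
    apply T.two
    apply (algebraMap F (AlgebraicClosure F)).injective
    rw [map_zero, ← h, map_ofNat]
  obtain ⟨f, hf1, hf2, hf3⟩ := exists_f C T tab hn0 hm0 h0 b (AlgebraicClosure F)
  have hker : ∀ d, f d = 1 → phiI C T d = 1 := by
    intro d hd
    apply ker_phiI
    have h3 : (((d : ↥(DI C T)) : G × (V ≃ₗ[F] V)).2 : V →ₗ[F] V) = 1 := by
      apply bcE_injective b (AlgebraicClosure F)
      rw [map_one]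
      exact hf1 d hd
    exact LinearEquiv.toLinearMap_injective h3
  have hsign : ∀ d, Equiv.Perm.sign (phiI C T d) = 1 := fun d => by
    rw [phiI_apply]; exact sign_psiI C T _
  by_cases h3 : (3 : AlgebraicClosure F) = 0
  · -- characteristic 3: the pair `x, r x r⁻¹`
    have h5 : (5 : AlgebraicClosure F) ≠ 0 := by
      intro h5
      apply h2K
      have : (2 : AlgebraicClosure F) = 5 - 3 := by norm_num
      rw [this, h5, h3, sub_zero]
    obtain ⟨d, hd⟩ := onto_phiI C T c5 sign_c5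
    obtain ⟨m, hm, n, hmn⟩ := five_part (phiI C T) hd
    set y := d ^ m with hy
    obtain ⟨r, -, hr, hrN, hrψ, hrs⟩ := conj_s C (π := u4) (by rw [sign_u4]; decide)
    have hrz : r * z = z * r := C.z_cen r hr
    obtain ⟨Mr, hMr⟩ := T.ex r hrz
    set cj := cjI C T hrN hrz hMr with hcj
    set w : ↥(_root_.commutator ↥(DI C T)) := ⟨cj y, hom_comm cj y⟩ with hw
    have hw5 : ∃ n, w ^ 5 ^ n = 1 := by
      refine ⟨n, Subtype.ext ?_⟩
      rw [SubmonoidClass.coe_pow, OneMemClass.coe_one, hw]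
      show (cj y) ^ 5 ^ n = 1
      rw [← map_pow, ← SubmonoidClass.coe_pow, hmn, OneMemClass.coe_one, map_one]
    have hφw : phiI C T w = c5 ^ 3 := by
      rw [phiI_apply, hw]
      show psiI C T (cj y) = _
      rw [hcj, psiI_cj C T hrN hr hrz hMr, ← phiI_apply, hm, hrψ, u4_conj]
    have htr : (f y).1.trace = (f w).1.trace := by
      obtain ⟨l, h1⟩ := quad_ex h2K (f y).1.trace
      obtain ⟨u, hu0, hul⟩ := hf2 y l h1
      have h2 : rho G b (AlgebraicClosure F) ((w : ↥(DI C T)) : G × (V ≃ₗ[F] V))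
          (rho G b (AlgebraicClosure F) (r, Mr) u) = l • rho G b (AlgebraicClosure F) (r, Mr) u := by
        have e1 : ((w : ↥(DI C T)) : G × (V ≃ₗ[F] V)) = (r, Mr) * ((y : ↥(DI C T)) : G × (V ≃ₗ[F] V)) * (r, Mr)⁻¹ := by
          rw [hw]
          exact cjI_coe C T hrN hrz hMr y
        rw [e1, ← app_mul, ← app_mul, app_inv, hul, map_smul]
      have h3 : rho G b (AlgebraicClosure F) (r, Mr) u ≠ 0 := by
        intro h3
        apply hu0
        rw [← app_inv (rho G b (AlgebraicClosure F)) (r, Mr) u, h3, map_zero]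
      exact quad_eq h1 (hf3 w l _ h3 h2)
    exact no_five h5 f (phiI C T) hker hsign ⟨n, hmn⟩ hw5 htr hm (Or.inr hφw)
  · exact no_A6 h3 f (phiI C T) hker (onto_phiI C T)

end Cfsg.Agent.H64.Co3
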