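import Cfsg.Agent.H64.Co3.D8C0
import Cfsg.Agent.H64.Co3.C1

/-!
# S1920, case B, E8 with `z` of type D8 (helper64)
-/

set_option autoImplicit false

open Subgroup QuadraticMap

namespace Cfsg.Agent.H64.Co3

open Cfsg.Agent.H13.Co3

variable {F V G : Type*} [Field F] [AddCommGroup V] [Module F V] [Group G] {Q : QuadraticForm F V}
  {P N0 : Subgroup G} {z s : G} {ψ : ↥(normalizer (P : Set G)) →* Equiv.Perm (Fin 6)}
  {R : G → (V ≃ₗ[F] V) → Prop}

/-- **E8, `z` of type D8** : the configuration does not exist. -/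
theorem d8_false [Finite F] [FiniteDimensional F V] [Finite G] (C : CB P N0 z s ψ) (T : D8I Q z R)
    (tab : TabI N0 Q z R) : False := by
  refine d8_comm C T tab fun n hn m hm M L hM hL => ?_
  by_contra hc
  exact d8_anti C T tab hn hm fun h => hc ((cm_iff T hM hL).1 h)

end Cfsg.Agent.H64.Co3
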