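import Cfsg.Agent.H64.Co3.D8I

/-!
# S1920, E8-D8: dimensions of the (-1)-eigenspace of `Ad M` on `so(Q)` (helper64)
-/

set_option autoImplicit false

open QuadraticMap Matrix

namespace Cfsg.Agent.H64.Co3

open Cfsg.Agent.LieClassical.OrthCore

section mat

variable {F : Type*} [Field F] {k : ℕ}

/-- pairs `i < j` and pairs `i < j` -/
abbrev IxN (k : ℕ) := {p : Fin k × Fin k // p.1 < p.2} ⊕ {p : Fin k × Fin k // p.1 < p.2}

/-- pairs `i < j` and pairs `i ≤ j` -/
abbrev IxP (k : ℕ) := {p : Fin k × Fin k // p.1 < p.2} ⊕ {p : Fin k × Fin k // p.1 ≤ p.2}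

/-- the space of Gram matrices: `A` skew with blocks `A₂₁ = -e A₁₂`, `A₂₂ = -e l A₁₁` -/
def AA (k : ℕ) (e l : F) : Submodule F (Matrix (Fin k ⊕ Fin k) (Fin k ⊕ Fin k) F) where
  carrier := {A | (∀ i j, A j i = - A i j) ∧ (∀ i j, A (Sum.inr i) (Sum.inl j) = -e * A (Sum.inl i) (Sum.inr j)) ∧
    ∀ i j, A (Sum.inr i) (Sum.inr j) = - e * l * A (Sum.inl i) (Sum.inl j)}
  add_mem' := by
    rintro A B ⟨h1, h2, h3⟩ ⟨h4, h5, h6⟩
    refine ⟨fun i j => ?_, fun i j => ?_, fun i j => ?_⟩
    · rw [Matrix.add_apply, Matrix.add_apply, h1, h4]; ring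
    · rw [Matrix.add_apply, Matrix.add_apply, h2, h5]; ring
    · rw [Matrix.add_apply, Matrix.add_apply, h3, h6]; ring
  zero_mem' := by simp
  smul_mem' := by
    rintro c A ⟨h1, h2, h3⟩
    refine ⟨fun i j => ?_, fun i j => ?_, fun i j => ?_⟩
    · rw [Matrix.smul_apply, Matrix.smul_apply, h1, smul_neg]
    · rw [Matrix.smul_apply, Matrix.smul_apply, h2, smul_eq_mul, smul_eq_mul]; ring
    · rw [Matrix.smul_apply, Matrix.smul_apply, h3, smul_eq_mul, smul_eq_mul]; ring

theorem eq_zero_of_neg (h2 : (2 : F) ≠ 0) {x : F} (h : x = -x) : x = 0 := by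
  have h1 : 2 * x = 0 := by linear_combination h
  exact (mul_eq_zero.1 h1).resolve_left h2

/-- coordinates, `e = -1` -/
def coN (k : ℕ) (l : F) : AA k (-1) l →ₗ[F] (IxN k → F) where
  toFun A := Sum.elim (fun p => A.1 (Sum.inl p.1.1) (Sum.inl p.1.2)) (fun p => A.1 (Sum.inl p.1.1) (Sum.inr p.1.2))
  map_add' A B := by
    funext p
    rcases p with p | p <;> rfl
  map_smul' c A := by
    funext p
    rcases p with p | p <;> rfl

/-- coordinates, `e = 1` -/
def coP (k : ℕ) (l : F) : AA k 1 l →ₗ[F] (IxP k → F) where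
  toFun A := Sum.elim (fun p => A.1 (Sum.inl p.1.1) (Sum.inl p.1.2)) (fun p => A.1 (Sum.inl p.1.1) (Sum.inr p.1.2))
  map_add' A B := by
    funext p
    rcases p with p | p <;> rfl
  map_smul' c A := by
    funext p
    rcases p with p | p <;> rfl

theorem coN_bij (h2 : (2 : F) ≠ 0) (l : F) : Function.Bijective (coN k l) := by
  constructor
  · rw [← LinearMap.ker_eq_bot, LinearMap.ker_eq_bot']
    rintro ⟨A, h1, h3, h4⟩ h0
    have e1 : ∀ i j, i < j → A (Sum.inl i) (Sum.inl j) = 0 := fun i j hij =>
      congrFun h0 (Sum.inl ⟨(i, j), hij⟩)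
    have e2 : ∀ i j, i < j → A (Sum.inl i) (Sum.inr j) = 0 := fun i j hij =>
      congrFun h0 (Sum.inr ⟨(i, j), hij⟩)
    have e3 : ∀ i j, A (Sum.inl i) (Sum.inl j) = 0 := by
      intro i j
      rcases lt_trichotomy i j with h | h | h
      · exact e1 i j h
      · subst h; exact eq_zero_of_neg h2 (h1 _ _)
      · rw [h1, e1 j i h, neg_zero]
    have e4 : ∀ i j, A (Sum.inl i) (Sum.inr j) = - A (Sum.inl j) (Sum.inr i) := by
      intro i j
      rw [h1, h3]; ring
    have e5 : ∀ i j, A (Sum.inl i) (Sum.inr j) = 0 := by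
      intro i j
      rcases lt_trichotomy i j with h | h | h
      · exact e2 i j h
      · subst h; exact eq_zero_of_neg h2 (e4 _ _)
      · rw [e4, e2 j i h, neg_zero]
    apply Subtype.ext
    ext i j
    rcases i with i | i <;> rcases j with j | j
    · exact e3 i j
    · exact e5 i j
    · show A (Sum.inr i) (Sum.inl j) = 0
      rw [h3, e5, mul_zero]
    · show A (Sum.inr i) (Sum.inr j) = 0
      rw [h4, e3, mul_zero]
  · intro f
    let a : Fin k → Fin k → F := fun i j => if h : i < j then f (Sum.inl ⟨(i, j), h⟩) else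
      if h : j < i then - f (Sum.inl ⟨(j, i), h⟩) else 0
    let b : Fin k → Fin k → F := fun i j => if h : i < j then f (Sum.inr ⟨(i, j), h⟩) else
      if h : j < i then - f (Sum.inr ⟨(j, i), h⟩) else 0
    have ha : ∀ i j, a j i = - a i j := by
      intro i j
      simp only [a]
      rcases lt_trichotomy i j with h | h | h
      · rw [dif_neg h.asymm, dif_pos h, dif_pos h]
      · subst h; simp
      · rw [dif_pos h, dif_neg h.asymm, dif_pos h, neg_neg]
    have hb : ∀ i j, b j i = - b i j := by
      intro i j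
      simp only [b]
      rcases lt_trichotomy i j with h | h | h
      · rw [dif_neg h.asymm, dif_pos h, dif_pos h]
      · subst h; simp
      · rw [dif_pos h, dif_neg h.asymm, dif_pos h, neg_neg]
    refine ⟨⟨Matrix.fromBlocks (Matrix.of a) (Matrix.of b) (Matrix.of b) (l • Matrix.of a), ?_, ?_, ?_⟩, ?_⟩
    · rintro (i | i) (j | j)
      · exact ha i j
      · exact hb i j
      · exact hb i j
      · show l • a j i = -(l • a i j)
        rw [ha, smul_neg]
    · intro i j
      show b i j = - (-1) * b i j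
      ring
    · intro i j
      show l • a i j = - (-1) * l * a i j
      rw [smul_eq_mul]; ring
    · funext p
      rcases p with ⟨⟨i, j⟩, h⟩ | ⟨⟨i, j⟩, h⟩
      · show a i j = _
        simp only [a]
        rw [dif_pos h]
      · show b i j = _
        simp only [b]
        rw [dif_pos h]

theorem coP_bij (h2 : (2 : F) ≠ 0) (l : F) : Function.Bijective (coP k l) := by
  constructor
  · rw [← LinearMap.ker_eq_bot, LinearMap.ker_eq_bot']
    rintro ⟨A, h1, h3, h4⟩ h0
    have e1 : ∀ i j, i < j → A (Sum.inl i) (Sum.inl j) = 0 := fun i j hij =>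
      congrFun h0 (Sum.inl ⟨(i, j), hij⟩)
    have e2 : ∀ i j, i ≤ j → A (Sum.inl i) (Sum.inr j) = 0 := fun i j hij =>
      congrFun h0 (Sum.inr ⟨(i, j), hij⟩)
    have e3 : ∀ i j, A (Sum.inl i) (Sum.inl j) = 0 := by
      intro i j
      rcases lt_trichotomy i j with h | h | h
      · exact e1 i j h
      · subst h; exact eq_zero_of_neg h2 (h1 _ _)
      · rw [h1, e1 j i h, neg_zero]
    have e4 : ∀ i j, A (Sum.inl i) (Sum.inr j) = A (Sum.inl j) (Sum.inr i) := by
      intro i j
      rw [h1, h3]; ring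
    have e5 : ∀ i j, A (Sum.inl i) (Sum.inr j) = 0 := by
      intro i j
      rcases le_total i j with h | h
      · exact e2 i j h
      · rw [e4, e2 j i h]
    apply Subtype.ext
    ext i j
    rcases i with i | i <;> rcases j with j | j
    · exact e3 i j
    · exact e5 i j
    · show A (Sum.inr i) (Sum.inl j) = 0
      rw [h3, e5, mul_zero]
    · show A (Sum.inr i) (Sum.inr j) = 0
      rw [h4, e3, mul_zero]
  · intro f
    let a : Fin k → Fin k → F := fun i j => if h : i < j then f (Sum.inl ⟨(i, j), h⟩) else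
      if h : j < i then - f (Sum.inl ⟨(j, i), h⟩) else 0
    let b : Fin k → Fin k → F := fun i j => if h : i ≤ j then f (Sum.inr ⟨(i, j), h⟩) else
      f (Sum.inr ⟨(j, i), le_of_not_ge h⟩)
    have ha : ∀ i j, a j i = - a i j := by
      intro i j
      simp only [a]
      rcases lt_trichotomy i j with h | h | h
      · rw [dif_neg h.asymm, dif_pos h, dif_pos h]
      · subst h; simp
      · rw [dif_pos h, dif_neg h.asymm, dif_pos h, neg_neg]
    have hb : ∀ i j, b j i = b i j := by
      intro i j
      simp only [b]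
      rcases lt_trichotomy i j with h | h | h
      · rw [dif_neg h.not_ge, dif_pos h.le]
      · subst h; simp
      · rw [dif_pos h.le, dif_neg h.not_ge]
    refine ⟨⟨Matrix.fromBlocks (Matrix.of a) (Matrix.of b) (-Matrix.of b) (-(l • Matrix.of a)), ?_, ?_, ?_⟩, ?_⟩
    · rintro (i | i) (j | j)
      · exact ha i j
      · show - b j i = - b i j
        rw [hb]
      · show b j i = - - b i j
        rw [hb, neg_neg]
      · show -(l • a j i) = - -(l • a i j)
        rw [ha, smul_neg]
    · intro i j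
      show -b i j = - 1 * b i j
      ring
    · intro i j
      show -(l • a i j) = - 1 * l * a i j
      rw [smul_eq_mul]; ring
    · funext p
      rcases p with ⟨⟨i, j⟩, h⟩ | ⟨⟨i, j⟩, h⟩
      · show a i j = _
        simp only [a]
        rw [dif_pos h]
      · show b i j = _
        simp only [b]
        rw [dif_pos h]

theorem finrank_AA_neg (h2 : (2 : F) ≠ 0) (l : F) : Module.finrank F (AA 8 (-1) l) = 56 := by
  rw [(LinearEquiv.ofBijective (coN 8 l) (coN_bij h2 l)).finrank_eq, Module.finrank_fintype_fun_eq_card]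
  rfl

theorem finrank_AA_pos (h2 : (2 : F) ≠ 0) (l : F) : Module.finrank F (AA 8 1 l) = 64 := by
  rw [(LinearEquiv.ofBijective (coP 8 l) (coP_bij h2 l)).finrank_eq, Module.finrank_fintype_fun_eq_card]
  rfl

end mat

section form

variable {F V : Type*} [Field F] [AddCommGroup V] [Module F V] [FiniteDimensional F V] {Q : QuadraticForm F V}

/-- `S ↦ Gram matrix of (u, v) ↦ B (S u) v` -/
noncomputable def gram (Q : QuadraticForm F V) {n : Type*} [Fintype n] [DecidableEq n] (b : Module.Basis n F V) :
    (V →ₗ[F] V) →ₗ[F] Matrix n n F where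
  toFun S := Matrix.of fun i j => polar Q (S (b i)) (b j)
  map_add' S T := by
    ext i j
    exact polar_add_left Q _ _ _
  map_smul' c S := by
    ext i j
    exact polar_smul_left Q c _ _

omit [FiniteDimensional F V] in
theorem gram_apply {n : Type*} [Fintype n] [DecidableEq n] (b : Module.Basis n F V) (S : V →ₗ[F] V) (i j : n) :
    gram Q b S i j = polar Q (S (b i)) (b j) := rfl

omit [FiniteDimensional F V] in
theorem gram_injective (hQ : Nondeg Q) {n : Type*} [Fintype n] [DecidableEq n] (b : Module.Basis n F V) :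
    Function.Injective (gram Q b) := by
  rw [← LinearMap.ker_eq_bot, LinearMap.ker_eq_bot']
  intro S hS
  apply b.ext
  intro i
  rw [LinearMap.zero_apply]
  apply hQ
  intro y
  have h1 : (polarBilin Q (S (b i))) = 0 := by
    apply b.ext
    intro j
    exact congrFun (congrFun hS i) j
  exact congrArg (fun f : V →ₗ[F] F => f y) h1

theorem gram_surjective (hQ : Nondeg Q) {n : Type*} [Fintype n] [DecidableEq n] (b : Module.Basis n F V) :
    Function.Surjective (gram Q b) := by
  refine (LinearMap.injective_iff_surjective_of_finrank_eq_finrank ?_).1 (gram_injective hQ b)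
  rw [Module.finrank_linearMap, Module.finrank_matrix, Module.finrank_eq_card_basis b, Module.finrank_self, mul_one]

/-- a basis adapted to `M`: `M b_i = b_{i'}`, `M b_{i'} = l b_i` -/
structure Ada (Q : QuadraticForm F V) (M : V ≃ₗ[F] V) (k : ℕ) (l : F) (b : Module.Basis (Fin k ⊕ Fin k) F V) :
    Prop where
  one : ∀ i, M (b (Sum.inl i)) = b (Sum.inr i)
  two : ∀ i, M (b (Sum.inr i)) = l • b (Sum.inl i)

omit [FiniteDimensional F V] in
theorem polar_ext {n : Type*} (b : Module.Basis n F V) {f g : V →ₗ[F] V →ₗ[F] F} (h : ∀ i j, f (b i) (b j) = g (b i) (b j)) :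
    f = g := b.ext fun i => b.ext fun j => h i j

omit [FiniteDimensional F V] in
/-- the Gram matrices of the elements of `adm Q M` -/
theorem mem_adm_iff {M : V ≃ₗ[F] V} {k : ℕ} {l e : F} (he : e * e = 1)
    {b : Module.Basis (Fin k ⊕ Fin k) F V} (hb : Ada Q M k l b) (hQ : Nondeg Q)
    (hM : ∀ u v, polar Q (M u) v = e * polar Q u (M v)) (S : V →ₗ[F] V) :
    S ∈ adm Q M ↔ gram Q b S ∈ AA k e l := by
  constructor
  · rintro ⟨hs, hc⟩
    have key : ∀ u v, polar Q (S (M u)) v = - e * polar Q (S u) (M v) := by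
      intro u v
      have h1 := hc u
      have h3 : S (M u) = - M (S u) := by rw [h1, neg_neg]
      rw [h3, polar_neg_left, hM]
      ring
    refine ⟨fun i j => ?_, fun i j => ?_, fun i j => ?_⟩
    · rw [gram_apply, gram_apply, hs, polar_comm]
    · rw [gram_apply, gram_apply, ← hb.one, key, hb.one]
    · rw [gram_apply, gram_apply, ← hb.one i, key, hb.two, polar_smul_right, smul_eq_mul]
      ring
  · rintro ⟨h1, h3, h4⟩
    -- the two identities, checked on the basis
    let f1 : V →ₗ[F] V →ₗ[F] F := (polarBilin Q).comp S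
    let f2 : V →ₗ[F] V →ₗ[F] F := -((polarBilin Q).compl₂ S)
    have e1 : f1 = f2 := by
      apply polar_ext b
      intro i j
      show polar Q (S (b i)) (b j) = - polar Q (b i) (S (b j))
      have := h1 j i
      rw [gram_apply, gram_apply] at this
      rw [this, polar_comm Q (b i)]
    let g1 : V →ₗ[F] V →ₗ[F] F := ((polarBilin Q).comp S).comp M.toLinearMap
    let g2 : V →ₗ[F] V →ₗ[F] F := (-e) • (((polarBilin Q).comp S).compl₂ M.toLinearMap)
    have e2 : g1 = g2 := by
      apply polar_ext b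
      rintro (i | i) (j | j)
      · show polar Q (S (M (b (Sum.inl i)))) (b (Sum.inl j)) = (-e) * polar Q (S (b (Sum.inl i))) (M (b (Sum.inl j)))
        rw [hb.one, hb.one]
        exact h3 i j
      · show polar Q (S (M (b (Sum.inl i)))) (b (Sum.inr j)) = (-e) * polar Q (S (b (Sum.inl i))) (M (b (Sum.inr j)))
        rw [hb.one, hb.two, polar_smul_right, smul_eq_mul]
        have := h4 i j
        rw [gram_apply, gram_apply] at this
        rw [this]; ring
      · show polar Q (S (M (b (Sum.inr i)))) (b (Sum.inl j)) = (-e) * polar Q (S (b (Sum.inr i))) (M (b (Sum.inl j)))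
        rw [hb.one, hb.two, map_smul, polar_smul_left, smul_eq_mul]
        have := h4 i j
        rw [gram_apply, gram_apply] at this
        rw [this]
        linear_combination (- l * polar Q (S (b (Sum.inl i))) (b (Sum.inl j))) * he
      · show polar Q (S (M (b (Sum.inr i)))) (b (Sum.inr j)) = (-e) * polar Q (S (b (Sum.inr i))) (M (b (Sum.inr j)))
        rw [hb.two, hb.two, map_smul, polar_smul_left, polar_smul_right, smul_eq_mul, smul_eq_mul]
        have := h3 i j
        rw [gram_apply, gram_apply] at this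
        rw [this]
        linear_combination (- l * polar Q (S (b (Sum.inl i))) (b (Sum.inr j))) * he
    have k1 : ∀ u v, polar Q (S u) v = - polar Q u (S v) := fun u v =>
      congrArg (fun f : V →ₗ[F] V →ₗ[F] F => f u v) e1
    have k2 : ∀ u v, polar Q (S (M u)) v = (-e) * polar Q (S u) (M v) := fun u v =>
      congrArg (fun f : V →ₗ[F] V →ₗ[F] F => f u v) e2
    refine ⟨k1, fun u => ?_⟩
    rw [← sub_eq_zero, sub_neg_eq_add]
    apply hQ
    intro v
    rw [polar_add_left, k2, hM]
    ring

theorem finrank_adm {M : V ≃ₗ[F] V} {k : ℕ} {l e : F} (he : e * e = 1)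
    {b : Module.Basis (Fin k ⊕ Fin k) F V} (hb : Ada Q M k l b) (hQ : Nondeg Q)
    (hM : ∀ u v, polar Q (M u) v = e * polar Q u (M v)) :
    Module.finrank F (adm Q M) = Module.finrank F (AA k e l) := by
  let Φ : (V →ₗ[F] V) ≃ₗ[F] Matrix (Fin k ⊕ Fin k) (Fin k ⊕ Fin k) F :=
    LinearEquiv.ofBijective (gram Q b) ⟨gram_injective hQ b, gram_surjective hQ b⟩
  have h1 : (adm Q M).map (Φ : (V →ₗ[F] V) →ₗ[F] Matrix (Fin k ⊕ Fin k) (Fin k ⊕ Fin k) F) = AA k e l := by
    ext A
    constructor
    · rintro ⟨S, hS, rfl⟩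
      exact (mem_adm_iff he hb hQ hM S).1 hS
    · intro hA
      obtain ⟨S, rfl⟩ := Φ.surjective A
      exact ⟨S, (mem_adm_iff he hb hQ hM S).2 hA, rfl⟩
  rw [← h1, LinearEquiv.finrank_map_eq]

/-- `M`-free families -/
def Fr (M : V ≃ₗ[F] V) {k : ℕ} (v : Fin k → V) : Prop :=
  ∀ a c : Fin k → F, ∑ i, (a i • v i + c i • M (v i)) = 0 → a = 0 ∧ c = 0

omit [FiniteDimensional F V] in
/-- a free family of 8 vectors gives an adapted basis -/
theorem exists_ada_of_fr (hd : Module.finrank F V = 16) {M : V ≃ₗ[F] V} {l : F} (hM : ∀ v, M (M v) = l • v)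
    {v : Fin 8 → V} (hv : Fr M v) : ∃ b : Module.Basis (Fin 8 ⊕ Fin 8) F V, Ada Q M 8 l b := by
  have hli : LinearIndependent F (Sum.elim v (fun i => M (v i))) := by
    rw [Fintype.linearIndependent_iff]
    intro g hg
    rw [Fintype.sum_sum_type] at hg
    simp only [Sum.elim_inl, Sum.elim_inr] at hg
    rw [← Finset.sum_add_distrib] at hg
    obtain ⟨h1, h2⟩ := hv (fun i => g (Sum.inl i)) (fun i => g (Sum.inr i)) hg
    rintro (i | i)
    · exact congrFun h1 i
    · exact congrFun h2 i
  have hc : Fintype.card (Fin 8 ⊕ Fin 8) = Module.finrank F V := by rw [hd]; rfl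
  refine ⟨basisOfLinearIndependentOfCardEqFinrank hli hc, ⟨fun i => ?_, fun i => ?_⟩⟩
  · rw [coe_basisOfLinearIndependentOfCardEqFinrank]
    rfl
  · rw [coe_basisOfLinearIndependentOfCardEqFinrank]
    exact hM _

/-- the eigenspaces -/
def eig (M : V ≃ₗ[F] V) (n : F) : Submodule F V := LinearMap.ker (M.toLinearMap - n • LinearMap.id)

omit [FiniteDimensional F V] in
theorem mem_eig {M : V ≃ₗ[F] V} {n : F} {v : V} : v ∈ eig M n ↔ M v = n • v := by
  rw [eig, LinearMap.mem_ker, LinearMap.sub_apply, sub_eq_zero]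
  rfl

omit [FiniteDimensional F V] in
/-- nonsquare case: free families exist -/
theorem exists_fr_nonsq {M : V ≃ₗ[F] V} {l : F} (hM : ∀ v, M (M v) = l • v) (hl : ¬ IsSquare l) :
    ∀ k : ℕ, 2 * k ≤ Module.finrank F V → ∃ v : Fin k → V, Fr M v := by
  intro k
  induction k with
  | zero =>
    intro _
    exact ⟨fun i => i.elim0, fun a c _ => ⟨funext fun i => i.elim0, funext fun i => i.elim0⟩⟩
  | succ k ih =>
    intro hk
    obtain ⟨v, hv⟩ := ih (by omega)
    let U : Submodule F V := Submodule.span F (Set.range (Sum.elim v (fun i => M (v i))))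
    have hU : ∀ a c : Fin k → F, ∑ i, (a i • v i + c i • M (v i)) ∈ U := by
      intro a c
      refine Submodule.sum_mem _ fun i _ => Submodule.add_mem _ ?_ ?_
      · exact Submodule.smul_mem _ _ (Submodule.subset_span ⟨Sum.inl i, rfl⟩)
      · exact Submodule.smul_mem _ _ (Submodule.subset_span ⟨Sum.inr i, rfl⟩)
    have hUM : ∀ u ∈ U, M u ∈ U := by
      have h1 : U ≤ U.comap M.toLinearMap := by
        rw [Submodule.span_le]
        rintro _ ⟨i | i, rfl⟩
        · exact Submodule.subset_span ⟨Sum.inr i, rfl⟩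
        · show M (M (v i)) ∈ U
          rw [hM]
          exact Submodule.smul_mem _ _ (Submodule.subset_span ⟨Sum.inl i, rfl⟩)
      exact fun u hu => h1 hu
    have hUt : U ≠ ⊤ := by
      intro h
      have h1 : Module.finrank F U ≤ 2 * k := by
        refine (finrank_range_le_card (R := F) (Sum.elim v (fun i => M (v i)))).trans ?_
        rw [Fintype.card_sum, Fintype.card_fin]
        omega
      rw [h, finrank_top] at h1
      omega
    obtain ⟨v0, hv0⟩ : ∃ v0 : V, v0 ∉ U := by
      by_contra hc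
      push Not at hc
      exact hUt (eq_top_iff.2 fun x _ => hc x)
    refine ⟨Fin.cons v0 v, fun a c h => ?_⟩
    rw [Fin.sum_univ_succ] at h
    simp only [Fin.cons_zero, Fin.cons_succ] at h
    have h1 : a 0 • v0 + c 0 • M v0 ∈ U := by
      rw [eq_neg_of_add_eq_zero_left h]
      exact Submodule.neg_mem _ (hU (fun i => a i.succ) (fun i => c i.succ))
    have h2 : (a 0 * a 0 - c 0 * c 0 * l) • v0 ∈ U := by
      have h3 := Submodule.sub_mem _ (Submodule.smul_mem _ (a 0) h1) (Submodule.smul_mem _ (c 0) (hUM _ h1))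
      have h4 : a 0 • (a 0 • v0 + c 0 • M v0) - c 0 • M (a 0 • v0 + c 0 • M v0) =
          (a 0 * a 0 - c 0 * c 0 * l) • v0 := by
        rw [map_add, map_smul, map_smul, hM]
        module
      rw [h4] at h3
      exact h3
    have h3 : a 0 * a 0 - c 0 * c 0 * l = 0 := by
      by_contra h4
      apply hv0
      have h5 := Submodule.smul_mem _ (a 0 * a 0 - c 0 * c 0 * l)⁻¹ h2
      rw [smul_smul, inv_mul_cancel₀ h4, one_smul] at h5
      exact h5
    have hc0 : c 0 = 0 := by
      by_contra h4
      apply hl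
      refine ⟨a 0 / c 0, ?_⟩
      field_simp
      linear_combination -h3
    have ha0 : a 0 = 0 := by
      rw [hc0, zero_mul, zero_mul, sub_zero, mul_self_eq_zero] at h3
      exact h3
    rw [ha0, hc0, zero_smul, zero_smul, zero_add, zero_add] at h
    obtain ⟨h4, h5⟩ := hv _ _ h
    constructor
    · funext i
      refine Fin.cases ha0 (fun i => ?_) i
      exact congrFun h4 i
    · funext i
      refine Fin.cases hc0 (fun i => ?_) i
      exact congrFun h5 i

omit [FiniteDimensional F V] in
theorem eig_inf (h2 : (2 : F) ≠ 0) {M : V ≃ₗ[F] V} {n : F} (hn : n ≠ 0) {v : V} (h1 : v ∈ eig M n)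
    (h3 : v ∈ eig M (-n)) : v = 0 := by
  rw [mem_eig] at h1 h3
  have h4 : (2 * n) • v = 0 := by
    rw [two_mul, add_smul]
    nth_rewrite 1 [← h1]
    rw [h3, neg_smul, neg_add_cancel]
  exact (smul_eq_zero.1 h4).resolve_left (mul_ne_zero h2 hn)

theorem finrank_eig (h2 : (2 : F) ≠ 0) {M : V ≃ₗ[F] V} {n : F} (hn : n ≠ 0) (hM : ∀ v, M (M v) = (n * n) • v) :
    Module.finrank F (eig M n) + Module.finrank F (eig M (-n)) = Module.finrank F V := by
  have h1 := Submodule.finrank_sup_add_finrank_inf_eq (eig M n) (eig M (-n))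
  have h3 : eig M n ⊓ eig M (-n) = ⊥ := by
    rw [eq_bot_iff]
    rintro v ⟨hv1, hv2⟩
    exact eig_inf h2 hn hv1 hv2
  have h4 : eig M n ⊔ eig M (-n) = ⊤ := by
    rw [eq_top_iff]
    intro v _
    have h5 : v = ((2 : F)⁻¹ * n⁻¹) • (n • v + M v) + ((2 : F)⁻¹ * n⁻¹) • (n • v - M v) := by
      match_scalars
      · field_simp
        ring
      · ring
    rw [h5]
    refine Submodule.add_mem_sup ?_ ?_
    · apply Submodule.smul_mem
      rw [mem_eig, map_add, map_smul, hM]
      module
    · apply Submodule.smul_mem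
      rw [mem_eig, map_sub, map_smul, hM]
      module
  rw [h3, h4, finrank_bot, finrank_top, add_zero] at h1
  exact h1.symm

/-- square case with eigenspaces of the same dimension -/
theorem exists_fr_sq (h2 : (2 : F) ≠ 0) {M : V ≃ₗ[F] V} {n : F} (hn : n ≠ 0)
    (h8 : Module.finrank F (eig M n) = 8) (h8' : Module.finrank F (eig M (-n)) = 8) : ∃ v : Fin 8 → V, Fr M v := by
  let x : Module.Basis (Fin 8) F (eig M n) := Module.finBasisOfFinrankEq F _ h8
  let y : Module.Basis (Fin 8) F (eig M (-n)) := Module.finBasisOfFinrankEq F _ h8'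
  refine ⟨fun i => (x i : V) + y i, fun a c h => ?_⟩
  have hx : ∀ i, M (x i : V) = n • (x i : V) := fun i => mem_eig.1 (x i).2
  have hy : ∀ i, M (y i : V) = (-n) • (y i : V) := fun i => mem_eig.1 (y i).2
  have e1 : ∑ i, (a i • ((x i : V) + y i) + c i • M ((x i : V) + y i)) =
      ((∑ i, (a i + n * c i) • x i : eig M n) : V) + ((∑ i, (a i - n * c i) • y i : eig M (-n)) : V) := by
    rw [Submodule.coe_sum, Submodule.coe_sum, ← Finset.sum_add_distrib]
    refine Finset.sum_congr rfl fun i _ => ?_
    rw [map_add, hx, hy, Submodule.coe_smul, Submodule.coe_smul]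
    module
  rw [e1] at h
  have h3 : ((∑ i, (a i + n * c i) • x i : eig M n) : V) = 0 := by
    apply eig_inf h2 hn (Submodule.coe_mem _)
    rw [eq_neg_of_add_eq_zero_left h]
    exact Submodule.neg_mem _ (Submodule.coe_mem _)
  have h4 : ((∑ i, (a i - n * c i) • y i : eig M (-n)) : V) = 0 := by
    rw [h3, zero_add] at h
    exact h
  have h5 := Fintype.linearIndependent_iff.1 x.linearIndependent _ (Subtype.ext h3)
  have h6 := Fintype.linearIndependent_iff.1 y.linearIndependent _ (Subtype.ext h4)
  have ha : ∀ i, a i = 0 := by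
    intro i
    have h7 : 2 * a i = 0 := by linear_combination h5 i + h6 i
    exact (mul_eq_zero.1 h7).resolve_left h2
  constructor
  · funext i; exact ha i
  · funext i
    have h7 := h5 i
    rw [ha, zero_add] at h7
    exact (mul_eq_zero.1 h7).resolve_left hn

/-- existence of an adapted basis -/
theorem exists_ada (h2 : (2 : F) ≠ 0) (hd : Module.finrank F V = 16) {M : V ≃ₗ[F] V} {l : F} (hl : l ≠ 0)
    (hM : ∀ v, M (M v) = l • v)
    (h : ∀ n : F, n * n = l → Module.finrank F (eig M n) = Module.finrank F (eig M (-n))) :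
    ∃ b : Module.Basis (Fin 8 ⊕ Fin 8) F V, Ada Q M 8 l b := by
  by_cases hs : IsSquare l
  · obtain ⟨n, rfl⟩ := hs
    have hn : n ≠ 0 := fun h0 => hl (by rw [h0, mul_zero])
    have h1 := finrank_eig h2 hn hM
    have h3 := h n rfl
    obtain ⟨v, hv⟩ := exists_fr_sq h2 hn (M := M) (by omega) (by omega)
    exact exists_ada_of_fr hd hM hv
  · obtain ⟨v, hv⟩ := exists_fr_nonsq hM hs 8 (by omega)
    exact exists_ada_of_fr hd hM hv

/-- `M` skew: the two eigenspaces have the same dimension -/
theorem eig_le_of_skew (h2 : (2 : F) ≠ 0) (hQ : Nondeg Q) {M : V ≃ₗ[F] V} {n : F} (hn : n ≠ 0)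
    (hM : ∀ v, M (M v) = (n * n) • v) (hs : ∀ u v, polar Q (M u) v = - polar Q u (M v)) :
    Module.finrank F (eig M n) ≤ Module.finrank F (eig M (-n)) := by
  let f : eig M n →ₗ[F] Module.Dual F (eig M (-n)) :=
    ((LinearMap.lcomp F F (eig M (-n)).subtype).comp (polarBilin Q)).comp (eig M n).subtype
  have hf : ∀ u w, f u w = polar Q (u : V) w := fun u w => rfl
  have hinj : Function.Injective f := by
    rw [← LinearMap.ker_eq_bot, LinearMap.ker_eq_bot']
    intro u hu
    apply Subtype.ext
    apply hQ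
    intro v
    have h5 : v = ((2 : F)⁻¹ * n⁻¹) • (n • v + M v) + ((2 : F)⁻¹ * n⁻¹) • (n • v - M v) := by
      match_scalars
      · field_simp
        ring
      · ring
    have h6 : polar Q (u : V) (n • v + M v) = 0 := by
      have hm : M (n • v + M v) = n • (n • v + M v) := by
        rw [map_add, map_smul, hM]
        module
      have h7 := hs u (n • v + M v)
      rw [mem_eig.1 u.2, hm, polar_smul_left, polar_smul_right, smul_eq_mul] at h7
      exact (mul_eq_zero.1 (eq_zero_of_neg h2 h7)).resolve_left hn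
    have h7 : polar Q (u : V) (n • v - M v) = 0 := by
      have hm : n • v - M v ∈ eig M (-n) := by
        rw [mem_eig, map_sub, map_smul, hM]
        module
      have h8 := congrArg (fun g : Module.Dual F (eig M (-n)) => g ⟨_, hm⟩) hu
      exact h8
    rw [h5, polar_add_right, polar_smul_right, polar_smul_right, h6, h7]
    simp
  refine (LinearMap.finrank_le_finrank_of_injective hinj).trans ?_
  rw [Subspace.dual_finrank_eq]

/-- **`M* = -M`: dimension 56** -/
theorem adm_neg (h2 : (2 : F) ≠ 0) (hQ : Nondeg Q) (hd : Module.finrank F V = 16) {M : V ≃ₗ[F] V} {l : F}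
    (hl : l ≠ 0) (hM : ∀ v, M (M v) = l • v) (hs : ∀ u v, polar Q (M u) v = - polar Q u (M v)) :
    Module.finrank F (adm Q M) = 56 := by
  obtain ⟨b, hb⟩ := exists_ada (Q := Q) h2 hd hl hM (by
    rintro n rfl
    have hn : n ≠ 0 := fun h0 => hl (by rw [h0, mul_zero])
    refine le_antisymm (eig_le_of_skew h2 hQ hn hM hs) ?_
    have h1 := eig_le_of_skew h2 hQ (neg_ne_zero.2 hn) (M := M) (by rw [neg_mul_neg]; exact hM) hs
    rw [neg_neg] at h1
    exact h1)
  rw [finrank_adm (e := -1) (by ring) hb hQ (fun u v => by rw [hs]; ring), finrank_AA_neg h2]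

/-- **`M* = M`, eigenspaces of the same dimension or `M²` not a square: dimension 64** -/
theorem adm_pos (h2 : (2 : F) ≠ 0) (hQ : Nondeg Q) (hd : Module.finrank F V = 16) {M : V ≃ₗ[F] V} {l : F}
    (hl : l ≠ 0) (hM : ∀ v, M (M v) = l • v) (hs : ∀ u v, polar Q (M u) v = polar Q u (M v))
    (h : ∀ n : F, n * n = l → Module.finrank F (eig M n) = Module.finrank F (eig M (-n))) :
    Module.finrank F (adm Q M) = 64 := by
  obtain ⟨b, hb⟩ := exists_ada (Q := Q) h2 hd hl hM h
  rw [finrank_adm (e := 1) (by ring) hb hQ (fun u v => by rw [hs]; ring), finrank_AA_pos h2]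

omit [FiniteDimensional F V] in
/-- `L` anticommutes with `M`: it maps an eigenspace into the other one -/
theorem eig_anti {M L : V ≃ₗ[F] V} (h : ∀ v, M (L v) = - L (M v)) {n : F} {v : V} (hv : v ∈ eig M n) :
    L v ∈ eig M (-n) := by
  rw [mem_eig] at hv ⊢
  rw [h, hv, map_smul, neg_smul]

theorem finrank_eig_anti {M L : V ≃ₗ[F] V} (h : ∀ v, M (L v) = - L (M v)) (n : F) :
    Module.finrank F (eig M n) = Module.finrank F (eig M (-n)) := by
  have key : ∀ n : F, Module.finrank F (eig M n) ≤ Module.finrank F (eig M (-n)) := by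
    intro n
    refine LinearMap.finrank_le_finrank_of_injective
      (f := (L.toLinearMap.restrict fun v (hv : v ∈ eig M n) => eig_anti h hv)) ?_
    intro u v huv
    apply Subtype.ext
    exact L.injective (congrArg Subtype.val huv)
  refine le_antisymm (key n) ?_
  have h1 := key (-n)
  rw [neg_neg] at h1
  exact h1

end form

end Cfsg.Agent.H64.Co3
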