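import Cfsg.Agent.H64.Co3.Adm
import Cfsg.Agent.H731.C3.Count
import Cfsg.Agent.H13.Co3.Tools

/-!
# S1920, E8-D8: base lemmas for the elements of `N0` and their lifts (helper64)

For `n ∈ N0` and a lift `M` (`R n M`): `M² = l`, `M* = ± M`, two lifts commute up to sign, and the table:
* `sq_of_skew` : `M* = -M → n² = z`;
* `sq_of_nonsq` : `M* = M`, `M² = l` nonsquare `→ n² = 1`;
* `sq_of_anti` : `M* = M`, `M` anticommutes with some `L` `→ n² = 1`.
-/

set_option autoImplicit false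

open Subgroup QuadraticMap

namespace Cfsg.Agent.H64.Co3

open Cfsg.Agent.LieClassical.OrthCore Cfsg.Agent.H13.Co3

variable {F V G : Type*} [Field F] [AddCommGroup V] [Module F V] [Group G] {Q : QuadraticForm F V}
  {P N0 : Subgroup G} {z s : G} {ψ : ↥(normalizer (P : Set G)) →* Equiv.Perm (Fin 6)}
  {R : G → (V ≃ₗ[F] V) → Prop}

/-- self-adjoint -/
def SA (Q : QuadraticForm F V) (M : V ≃ₗ[F] V) : Prop := ∀ u v, polar Q (M u) v = polar Q u (M v)

/-- skew-adjoint -/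
def SK (Q : QuadraticForm F V) (M : V ≃ₗ[F] V) : Prop := ∀ u v, polar Q (M u) v = - polar Q u (M v)

theorem nz (C : CB P N0 z s ψ) {n : G} (hn : n ∈ N0) : n * z = z * n := C.z_cen n (C.NH hn)

theorem D8I.R_z (T : D8I Q z R) : R z 1 := (T.one z).2 (Or.inr rfl)

theorem D8I.R_one (T : D8I Q z R) : R 1 1 := (T.one 1).2 (Or.inl rfl)

theorem D8I.exists_vec_ne (T : D8I Q z R) : ∃ v : V, v ≠ 0 := by
  have h := T.dim
  have : Nontrivial V := Module.nontrivial_of_finrank_pos (R := F) (by omega)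
  exact _root_.exists_ne 0

theorem D8I.exists_Q_ne (T : D8I Q z R) : ∃ v : V, Q v ≠ 0 := by
  by_contra hc
  push Not at hc
  obtain ⟨v, hv⟩ := T.exists_vec_ne
  apply hv
  apply T.nondeg
  intro y
  rw [polar, hc, hc, hc]; simp

/-- `R g M → R g⁻¹ M⁻¹` -/
theorem D8I.inv (T : D8I Q z R) {g : G} (hg : g * z = z * g) {M : V ≃ₗ[F] V} (h : R g M) : R g⁻¹ M⁻¹ := by
  have hg' : g⁻¹ * z = z * g⁻¹ := by
    rw [inv_mul_eq_iff_eq_mul, ← mul_assoc, hg, mul_inv_cancel_right]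
  obtain ⟨L, hL⟩ := T.ex _ hg'
  have h1 := T.mul h hL
  rw [mul_inv_cancel] at h1
  obtain ⟨c, hc, h2⟩ := T.uniq T.R_one h1
  refine T.scal c⁻¹ hL (inv_ne_zero hc) fun v => ?_
  have h3 : M (L v) = c • v := h2 v
  show M.symm v = c⁻¹ • L v
  rw [LinearEquiv.symm_apply_eq, map_smul, h3, smul_smul, inv_mul_cancel₀ hc, one_smul]

/-- the square of a lift is a scalar -/
theorem exists_sq (C : CB P N0 z s ψ) (T : D8I Q z R) {n : G} (hn : n ∈ N0) {M : V ≃ₗ[F] V} (hM : R n M) :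
    ∃ l : F, l ≠ 0 ∧ ∀ v, M (M v) = l • v := by
  have h1 := T.mul hM hM
  have h2 : R (n * n) 1 := (T.one _).2 (C.sq n hn)
  obtain ⟨c, hc, h3⟩ := T.uniq h2 h1
  exact ⟨c, hc, h3⟩

/-- similitudes and the polar form -/
theorem polar_of_sim {M : V ≃ₗ[F] V} {μ : F} (h : ∀ v, Q (M v) = μ * Q v) (u v : V) :
    polar Q (M u) (M v) = μ * polar Q u v := by
  rw [polar, polar, ← map_add, h, h, h]; ring

/-- the adjoint of a lift -/
theorem sa_or_sk (T : D8I Q z R) {g : G} {M : V ≃ₗ[F] V} (hM : R g M) {l : F} (hl : l ≠ 0)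
    (h : ∀ v, M (M v) = l • v) : (SA Q M ∧ ∀ v, Q (M v) = l * Q v) ∨ (SK Q M ∧ ∀ v, Q (M v) = - l * Q v) := by
  obtain ⟨μ, hμ, hs⟩ := T.sim hM
  obtain ⟨v0, hv0⟩ := T.exists_Q_ne
  have h1 : μ * μ = l * l := by
    have h2 := hs (M v0)
    rw [h, hs, QuadraticMap.map_smul, smul_eq_mul] at h2
    have h3 : (μ * μ - l * l) * Q v0 = 0 := by linear_combination -h2
    exact sub_eq_zero.1 ((mul_eq_zero.1 h3).resolve_right hv0)
  have h4 : (μ - l) * (μ + l) = 0 := by linear_combination h1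
  have key : ∀ u v, l * polar Q (M u) v = μ * polar Q u (M v) := by
    intro u v
    rw [← polar_of_sim hs, h, polar_smul_right, smul_eq_mul]
  rcases mul_eq_zero.1 h4 with h5 | h5
  · left
    have h6 : μ = l := sub_eq_zero.1 h5
    subst h6
    exact ⟨fun u v => mul_left_cancel₀ hl (key u v), hs⟩
  · right
    have h6 : μ = - l := eq_neg_of_add_eq_zero_left h5
    subst h6
    refine ⟨fun u v => mul_left_cancel₀ hl ?_, hs⟩
    rw [key]; ring

/-- two lifts of elements of `N0` commute up to sign -/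
theorem comm_or_anti (C : CB P N0 z s ψ) (T : D8I Q z R) {n m : G} (hn : n ∈ N0) (hm : m ∈ N0)
    {M L : V ≃ₗ[F] V} (hM : R n M) (hL : R m L) : (∀ v, M (L v) = L (M v)) ∨ ∀ v, M (L v) = - L (M v) := by
  have h1 := T.mul hM hL
  have h2 := T.mul hL hM
  have h3 : R (n * m) (L * M) := by
    rcases C.comm n hn m hm with h | h
    · rw [h]; exact h2
    · rw [h]
      have := T.mul T.R_z h2
      rwa [one_mul] at this
  obtain ⟨c, hc, h4⟩ := T.uniq h3 h1
  have h4' : ∀ v, M (L v) = c • L (M v) := h4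
  obtain ⟨l, hl, h5⟩ := exists_sq C T hn hM
  obtain ⟨v0, hv0⟩ := T.exists_vec_ne
  -- `c² = 1`
  have h6 : M (M (L v0)) = (c * c) • L (M (M v0)) := by
    rw [h4', map_smul, h4', smul_smul]
  rw [h5, h5, map_smul, smul_smul] at h6
  have h7 : (l - c * c * l) • L v0 = 0 := by rw [sub_smul, h6, sub_self]
  have h8 : L v0 ≠ 0 := fun h => hv0 (by rwa [LinearEquiv.map_eq_zero_iff] at h)
  have h9 := (smul_eq_zero.1 h7).resolve_right h8
  have h10 : (c - 1) * (c + 1) = 0 := by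
    have : l * ((c - 1) * (c + 1)) = 0 := by linear_combination -h9
    exact (mul_eq_zero.1 this).resolve_left hl
  rcases mul_eq_zero.1 h10 with h11 | h11
  · left
    intro v
    rw [h4', sub_eq_zero.1 h11, one_smul]
  · right
    intro v
    rw [h4', eq_neg_of_add_eq_zero_left h11, neg_smul, one_smul]

section fin

variable [FiniteDimensional F V]

/-- **`M* = -M → n² = z`** -/
theorem sq_of_skew (C : CB P N0 z s ψ) (T : D8I Q z R) (tab : TabI N0 Q z R) {n : G} (hn : n ∈ N0)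
    {M : V ≃ₗ[F] V} (hM : R n M) (hs : SK Q M) : n * n = z := by
  rcases C.sq n hn with h | h
  · exfalso
    obtain ⟨l, hl, h1⟩ := exists_sq C T hn hM
    have h2 := adm_neg T.two T.nondeg T.dim hl h1 hs
    by_cases h3 : n = 1 ∨ n = z
    · obtain ⟨c, hc, h4⟩ := T.uniq ((T.one n).2 h3) hM
      obtain ⟨v, hv⟩ := T.exists_Q_ne
      have h5 := hs v v
      have h4' : M v = c • v := h4 v
      rw [h4', polar_smul_left, polar_smul_right, polar_self', smul_eq_mul] at h5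
      have h6 := (mul_eq_zero.1 (eq_zero_of_neg T.two h5)).resolve_left hc
      exact hv ((mul_eq_zero.1 h6).resolve_left T.two)
    · push Not at h3
      rcases tab.t1 n hn h h3.1 h3.2 M hM with h4 | h4
      · omega
      · omega
  · exact h

/-- **`M* = M` and dimension 64 `→ n² = 1`** -/
theorem sq_of_dim (C : CB P N0 z s ψ) (T : D8I Q z R) (tab : TabI N0 Q z R) {n : G} (hn : n ∈ N0)
    {M : V ≃ₗ[F] V} (hM : R n M) (hs : SA Q M) {l : F} (hl : l ≠ 0) (h1 : ∀ v, M (M v) = l • v)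
    (h : ∀ n : F, n * n = l → Module.finrank F (eig M n) = Module.finrank F (eig M (-n))) : n * n = 1 := by
  rcases C.sq n hn with h' | h'
  · exact h'
  · exfalso
    have h2 := adm_pos T.two T.nondeg T.dim hl h1 hs h
    rcases tab.t2 n hn h' M hM with h3 | h3 | h3 <;> omega

/-- **`M* = M`, `M² = l` nonsquare `→ n² = 1`** -/
theorem sq_of_nonsq (C : CB P N0 z s ψ) (T : D8I Q z R) (tab : TabI N0 Q z R) {n : G} (hn : n ∈ N0)
    {M : V ≃ₗ[F] V} (hM : R n M) (hs : SA Q M) {l : F} (h1 : ∀ v, M (M v) = l • v) (hl : ¬ IsSquare l) :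
    n * n = 1 := by
  have hl0 : l ≠ 0 := by rintro rfl; exact hl ⟨0, by simp⟩
  exact sq_of_dim C T tab hn hM hs hl0 h1 fun n hn => absurd ⟨n, hn.symm⟩ hl

/-- **`M* = M`, `M` anticommutes with `L` `→ n² = 1`** -/
theorem sq_of_anti (C : CB P N0 z s ψ) (T : D8I Q z R) (tab : TabI N0 Q z R) {n : G} (hn : n ∈ N0)
    {M L : V ≃ₗ[F] V} (hM : R n M) (hs : SA Q M) (h : ∀ v, M (L v) = - L (M v)) : n * n = 1 := by
  obtain ⟨l, hl, h1⟩ := exists_sq C T hn hM
  exact sq_of_dim C T tab hn hM hs hl h1 fun n _ => finrank_eig_anti h n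

end fin

end Cfsg.Agent.H64.Co3
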