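import Cfsg.Agent.H64.Co3.Base
import Cfsg.Agent.H292.Co3.Signs
import Cfsg.Agent.H898.Co3.Eigb

/-!
# S1920, E8-D8, the case where all the lifts of `N0` commute (helper64)
-/

set_option autoImplicit false

open Subgroup QuadraticMap

namespace Cfsg.Agent.H64.Co3

open Cfsg.Agent.LieClassical.OrthCore Cfsg.Agent.LieClassical.OrthTrans Cfsg.Agent.H13.Co3

/-- the hom to `ℤˣ` given by a predicate -/
noncomputable def homOf {N : Type*} [Group N] (p : N → Prop) (h : ∀ n m, p (n * m) ↔ (p n ↔ p m)) : N →* ℤˣ := by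
  classical
  exact
  { toFun := fun n => if p n then 1 else -1
    map_one' := by
      have h1 := h 1 1
      rw [mul_one] at h1
      rw [if_pos (by tauto)]
    map_mul' := fun n m => by
      have h1 := h n m
      by_cases hn : p n <;> by_cases hm : p m <;> simp [h1, hn, hm] }

theorem homOf_eq {N : Type*} [Group N] (p : N → Prop) (h : ∀ n m, p (n * m) ↔ (p n ↔ p m)) (n : N) :
    (homOf p h n = -1 ↔ ¬ p n) ∧ (homOf p h n = 1 ↔ p n) := by
  classical
  have e : homOf p h n = if p n then 1 else -1 := by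
    unfold homOf
    simp only [MonoidHom.coe_mk, OneHom.coe_mk]
  rw [e]
  by_cases hn : p n
  · simp [hn]
  · simp [hn]

theorem homOf_all {N : Type*} [Group N] (p : N → Prop) (h : ∀ n m, p (n * m) ↔ (p n ↔ p m))
    (h1 : homOf p h = 1) (n : N) : p n := by
  rw [← (homOf_eq p h n).2, h1]; rfl

/-- products of nonzero elements of a finite field -/
theorem isSquare_mul_iff {F : Type*} [Field F] [Finite F] {x y : F} (hx : x ≠ 0) (hy : y ≠ 0) :
    IsSquare (x * y) ↔ (IsSquare x ↔ IsSquare y) := by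
  classical
  have : Fintype F := Fintype.ofFinite F
  have h1 : ((1 : ℤ) = -1) ↔ False := by decide
  have h2 : ((-1 : ℤ) = 1) ↔ False := by decide
  rw [← quadraticChar_one_iff_isSquare hx, ← quadraticChar_one_iff_isSquare hy,
    ← quadraticChar_one_iff_isSquare (mul_ne_zero hx hy), map_mul]
  rcases quadraticChar_dichotomy hx with h | h <;> rcases quadraticChar_dichotomy hy with h' | h' <;> rw [h, h'] <;>
    simp

variable {F V G : Type*} [Field F] [AddCommGroup V] [Module F V] [Group G] {Q : QuadraticForm F V}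
  {P N0 : Subgroup G} {z s : G} {ψ : ↥(normalizer (P : Set G)) →* Equiv.Perm (Fin 6)}
  {R : G → (V ≃ₗ[F] V) → Prop}

theorem SA.mul {M L : V ≃ₗ[F] V} (h : SA Q M) (h' : SA Q L) (hc : ∀ v, M (L v) = L (M v)) : SA Q (M * L) := by
  intro u v
  show polar Q (M (L u)) v = polar Q u (M (L v))
  rw [h, h', hc]

theorem SK.mul {M L : V ≃ₗ[F] V} (h : SK Q M) (h' : SK Q L) (hc : ∀ v, M (L v) = L (M v)) : SA Q (M * L) := by
  intro u v
  show polar Q (M (L u)) v = polar Q u (M (L v))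
  rw [h, h', hc, neg_neg]

theorem SA.mul_sk {M L : V ≃ₗ[F] V} (h : SA Q M) (h' : SK Q L) (hc : ∀ v, M (L v) = L (M v)) : SK Q (M * L) := by
  intro u v
  show polar Q (M (L u)) v = - polar Q u (M (L v))
  rw [h, h', hc]

theorem SK.mul_sa {M L : V ≃ₗ[F] V} (h : SK Q M) (h' : SA Q L) (hc : ∀ v, M (L v) = L (M v)) : SK Q (M * L) := by
  intro u v
  show polar Q (M (L u)) v = - polar Q u (M (L v))
  rw [h, h', hc]

theorem not_sa_sk (T : D8I Q z R) {M : V ≃ₗ[F] V} (h : SA Q M) (h' : SK Q M) : False := by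
  obtain ⟨v, hv⟩ := T.exists_vec_ne
  apply hv
  apply T.nondeg
  intro y
  obtain ⟨y, rfl⟩ := M.surjective y
  have h1 := h v y
  rw [h'] at h1
  exact eq_zero_of_neg T.two h1.symm

theorem sa_congr (T : D8I Q z R) {g : G} {M L : V ≃ₗ[F] V} (hM : R g M) (hL : R g L) (h : SA Q M) : SA Q L := by
  obtain ⟨c, -, h1⟩ := T.uniq hM hL
  intro u v
  rw [h1, h1, polar_smul_left, polar_smul_right, h]

/-- all the lifts are self-adjoint -/
theorem all_sa [FiniteDimensional F V] (C : CB P N0 z s ψ) (T : D8I Q z R) (tab : TabI N0 Q z R)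
    (hc : ∀ n ∈ N0, ∀ m ∈ N0, ∀ M L, R n M → R m L → ∀ v, M (L v) = L (M v)) {n : G} (hn : n ∈ N0)
    {M : V ≃ₗ[F] V} (hM : R n M) : SA Q M := by
  let p : ↥N0 → Prop := fun n => ∃ M, R (n : G) M ∧ SA Q M
  have hp : ∀ n m : ↥N0, p (n * m) ↔ (p n ↔ p m) := by
    intro n m
    obtain ⟨M, hM⟩ := T.ex (n : G) (nz C n.2)
    obtain ⟨L, hL⟩ := T.ex (m : G) (nz C m.2)
    obtain ⟨l, hl, h1⟩ := exists_sq C T n.2 hM
    obtain ⟨l', hl', h1'⟩ := exists_sq C T m.2 hL
    have hcc := hc n n.2 m m.2 M L hM hL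
    have hML : R ((n * m : ↥N0) : G) (M * L) := T.mul hM hL
    have key : ∀ {k : ↥N0} {K : V ≃ₗ[F] V}, R (k : G) K → (p k ↔ SA Q K) := by
      intro k K hK
      exact ⟨fun ⟨K', hK', h⟩ => sa_congr T hK' hK h, fun h => ⟨K, hK, h⟩⟩
    rw [key hM, key hL, key hML]
    rcases sa_or_sk T hM hl h1 with ⟨a, -⟩ | ⟨a, -⟩ <;> rcases sa_or_sk T hL hl' h1' with ⟨a', -⟩ | ⟨a', -⟩
    · simp [a, a', a.mul a' hcc]
    · have h3 : ¬ SA Q L := fun h => not_sa_sk T h a'
      have h4 : ¬ SA Q (M * L) := fun h => not_sa_sk T h (a.mul_sk a' hcc)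
      tauto
    · have h3 : ¬ SA Q M := fun h => not_sa_sk T h a
      have h4 : ¬ SA Q (M * L) := fun h => not_sa_sk T h (a.mul_sa a' hcc)
      tauto
    · have h3 : ¬ SA Q M := fun h => not_sa_sk T h a
      have h5 : ¬ SA Q L := fun h => not_sa_sk T h a'
      have h4 : SA Q (M * L) := a.mul a' hcc
      tauto
  have h1 : homOf p hp = 1 := by
    by_contra hne
    refine H731.C3.no_hom_one C (homOf p hp) hne fun n hn => ?_
    have h2 : ¬ p n := (homOf_eq p hp n).1.1 hn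
    obtain ⟨M, hM⟩ := T.ex (n : G) (nz C n.2)
    obtain ⟨l, hl, h3⟩ := exists_sq C T n.2 hM
    rcases sa_or_sk T hM hl h3 with ⟨a, -⟩ | ⟨a, -⟩
    · exact absurd ⟨M, hM, a⟩ h2
    · exact sq_of_skew C T tab n.2 hM a
  obtain ⟨M', hM', h2⟩ := homOf_all p hp h1 ⟨n, hn⟩
  exact sa_congr T hM' hM h2

/-- all the squares are squares -/
theorem all_sq [Finite F] [FiniteDimensional F V] (C : CB P N0 z s ψ) (T : D8I Q z R) (tab : TabI N0 Q z R)
    (hc : ∀ n ∈ N0, ∀ m ∈ N0, ∀ M L, R n M → R m L → ∀ v, M (L v) = L (M v)) {n : G} (hn : n ∈ N0)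
    {M : V ≃ₗ[F] V} (hM : R n M) {l : F} (hl : ∀ v, M (M v) = l • v) : IsSquare l := by
  obtain ⟨v0, hv0⟩ := T.exists_vec_ne
  have key : ∀ {g : G} {M L : V ≃ₗ[F] V} {l l' : F}, R g M → R g L → (∀ v, M (M v) = l • v) →
      (∀ v, L (L v) = l' • v) → IsSquare l → IsSquare l' := by
    intro g M L l l' hM hL h1 h2 h3
    obtain ⟨c, hc, h4⟩ := T.uniq hM hL
    have h5 := h2 v0
    rw [h4, h4, map_smul, h1, smul_smul, smul_smul] at h5
    have h6 : l' = c * c * l := by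
      have h7 : (l' - c * c * l) • v0 = 0 := by rw [sub_smul, ← h5, sub_self]
      exact sub_eq_zero.1 ((smul_eq_zero.1 h7).resolve_right hv0)
    rw [h6]
    exact (IsSquare.mul_self c).mul h3
  let p : ↥N0 → Prop := fun n => ∃ (M : V ≃ₗ[F] V) (l : F), R (n : G) M ∧ (∀ v, M (M v) = l • v) ∧ IsSquare l
  have hp : ∀ n m : ↥N0, p (n * m) ↔ (p n ↔ p m) := by
    intro n m
    obtain ⟨M, hM⟩ := T.ex (n : G) (nz C n.2)
    obtain ⟨L, hL⟩ := T.ex (m : G) (nz C m.2)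
    obtain ⟨l, hl, h1⟩ := exists_sq C T n.2 hM
    obtain ⟨l', hl', h1'⟩ := exists_sq C T m.2 hL
    have hcc := hc n n.2 m m.2 M L hM hL
    have hML : R ((n * m : ↥N0) : G) (M * L) := T.mul hM hL
    have key' : ∀ {k : ↥N0} {K : V ≃ₗ[F] V} {l : F}, R (k : G) K → (∀ v, K (K v) = l • v) → (p k ↔ IsSquare l) := by
      intro k K l hK hl
      exact ⟨fun ⟨K', l', hK', h, h'⟩ => key hK' hK h hl h', fun h => ⟨K, l, hK, hl, h⟩⟩
    have h3 : ∀ v, (M * L) ((M * L) v) = (l * l') • v := by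
      intro v
      show M (L (M (L v))) = _
      rw [← hcc, h1, h1', smul_smul]
    rw [key' hM h1, key' hL h1', key' hML h3]
    exact isSquare_mul_iff hl hl'
  have h1 : homOf p hp = 1 := by
    by_contra hne
    refine H731.C3.no_hom_two C (homOf p hp) hne fun n hn => ?_
    have h2 : ¬ p n := (homOf_eq p hp n).1.1 hn
    obtain ⟨M, hM⟩ := T.ex (n : G) (nz C n.2)
    obtain ⟨l, hl, h3⟩ := exists_sq C T n.2 hM
    exact sq_of_nonsq C T tab n.2 hM (all_sa C T tab hc n.2 hM) h3 fun h => h2 ⟨M, l, hM, h3, h⟩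
  obtain ⟨M', l', hM', h2, h3⟩ := homOf_all p hp h1 ⟨n, hn⟩
  exact key hM' hM h2 hl h3

/-- the 2-group over a group of isometries -/
def WW (T : D8I Q z R) (S : Subgroup (V ≃ₗ[F] V)) : Subgroup G where
  carrier := {g | g * z = z * g ∧ ∃ σ ∈ S, R g σ}
  one_mem' := ⟨by simp, 1, S.one_mem, T.R_one⟩
  mul_mem' := by
    rintro g h ⟨hg, σ, hσ, h1⟩ ⟨hh, τ, hτ, h2⟩
    refine ⟨?_, σ * τ, S.mul_mem hσ hτ, T.mul h1 h2⟩
    rw [mul_assoc, hh, ← mul_assoc, hg, mul_assoc]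
  inv_mem' := by
    rintro g ⟨hg, σ, hσ, h1⟩
    refine ⟨?_, σ⁻¹, S.inv_mem hσ, T.inv hg h1⟩
    rw [inv_mul_eq_iff_eq_mul, ← mul_assoc, hg, mul_inv_cancel_right]

/-- **Case `c = 0`** : the lifts of the elements of `N0` do not all commute. -/
theorem d8_comm [Finite F] [FiniteDimensional F V] [Finite G] (C : CB P N0 z s ψ) (T : D8I Q z R)
    (tab : TabI N0 Q z R)
    (hc : ∀ n ∈ N0, ∀ m ∈ N0, ∀ M L, R n M → R m L → ∀ v, M (L v) = L (M v)) : False := by
  classical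
  have hV : Finite V := Module.finite_of_finite F
  have hG : Good Q := LieClassical.OrthFinite.good_of_finite T.nondeg (by rw [T.dim]; norm_num)
  -- the eigenbasis
  let S : Set (Module.End F V) := {X | ∃ n ∈ N0, ∃ M : V ≃ₗ[F] V, R n M ∧ (M : V →ₗ[F] V) = X}
  obtain ⟨v, hv1, hv2, hv3⟩ := H898.Co3.exists_eigenbasis (B := polarBilin Q) (S := S) T.two
    (fun u v => polar_comm Q u v) (fun u hu => T.nondeg u hu)
    (by
      rintro _ ⟨n, hn, M, hM, rfl⟩
      obtain ⟨l, hl, h1⟩ := exists_sq C T hn hM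
      obtain ⟨ν, hν⟩ := all_sq C T tab hc hn hM h1
      refine ⟨ν, ?_, ?_⟩
      · rintro rfl
        exact hl (by rw [hν, mul_zero])
      · ext u
        show M (M u) = ν ^ 2 • u
        rw [h1, hν, pow_two])
    (by
      rintro _ ⟨n, hn, M, hM, rfl⟩ u w
      exact all_sa C T tab hc hn hM u w)
    (by
      rintro _ ⟨n, hn, M, hM, rfl⟩ _ ⟨m, hm, L, hL, rfl⟩
      ext u
      exact hc n hn m hm M L hM hL u)
    T.dim
  have ho : ∀ i j, i ≠ j → polar Q (v i) (v j) = 0 := hv1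
  have hq : ∀ j, Q (v j) ≠ 0 := by
    intro j h0
    apply hv2 j
    show polar Q (v j) (v j) = 0
    rw [polar_self', h0, mul_zero]
  set Sg := H292.Co3.Sg Q v with hSg
  have hcard : 2 ^ (16 - 2) ∣ Nat.card Sg := H292.Co3.Sg_card hG T.two ho hq
  set W := WW T Sg with hW
  -- `W` is a 2-group
  have hW2 : IsPGroup 2 W := by
    rintro ⟨g, hg, σ, hσ, h1⟩
    have h2 := T.mul h1 h1
    rw [H292.Co3.Sg_sq hσ] at h2
    refine ⟨2, Subtype.ext ?_⟩
    show g ^ (2 ^ 2) = 1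
    rw [show (2 ^ 2 : ℕ) = 2 + 2 by norm_num, pow_add, pow_two]
    rcases (T.one _).1 h2 with h3 | h3
    · rw [h3, one_mul]
    · rw [h3, C.z_sq]
  -- `W ≤ A`
  have hWA : W ≤ H13.Co3.AA C := by
    rintro g ⟨hg, σ, hσ, h1⟩
    rw [mem_AA, H738.C3.act_iff C]
    intro n hn
    obtain ⟨M, hM⟩ := T.ex n (nz C hn)
    have h2 : σ * M = M * σ := by
      have h3 : (σ : V →ₗ[F] V) ∘ₗ (M : V →ₗ[F] V) = (M : V →ₗ[F] V) ∘ₗ (σ : V →ₗ[F] V) := by
        apply v.ext
        intro i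
        show σ (M (v i)) = M (σ (v i))
        obtain ⟨c, hc⟩ := hv3 (M : V →ₗ[F] V) ⟨n, hn, M, hM, rfl⟩ i
        have hc' : M (v i) = c • v i := hc
        rcases (H292.Co3.mem_Sg_iff.1 hσ).2 i with h4 | h4
        · rw [hc', h4, map_smul, h4, hc']
        · rw [hc', h4, map_smul, h4, map_neg, hc', smul_neg]
      ext u
      exact congrArg (fun f : V →ₗ[F] V => f u) h3
    have h3 := T.mul h1 hM
    have h4 := T.mul hM h1
    have hng : (n * g) * z = z * (n * g) := by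
      rw [mul_assoc, hg, ← mul_assoc, nz C hn, mul_assoc]
    have h5 := T.mul h3 (T.inv hng h4)
    rw [h2, mul_inv_cancel] at h5
    rcases (T.one _).1 h5 with h6 | h6
    · left; exact mul_inv_eq_one.1 h6
    · right; exact mul_inv_eq_iff_eq_mul.1 h6
  have h1 := (card_dvd C hW2 hWA).1
  have h2 : Nat.card W ≤ 2 ^ 10 := Nat.le_of_dvd (by norm_num) h1
  -- `|Sg| ≤ 2 |W|`
  have h3 : ∀ σ : ↥Sg, ∃ g : ↥W, R (g : G) (σ : V ≃ₗ[F] V) := by
    intro σ
    obtain ⟨g, hg, h4⟩ := T.om σ.1 (H292.Co3.mem_Sg_iff.1 σ.2).1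
    exact ⟨⟨g, hg, σ.1, σ.2, h4⟩, h4⟩
  choose f hf using h3
  have hinj : Function.Injective (fun σ : ↥Sg => ((f σ, decide ((σ : V ≃ₗ[F] V) (v 0) = v 0)) : ↥W × Bool)) := by
    intro σ τ hστ
    obtain ⟨h4, h5⟩ := Prod.mk.inj hστ
    have h6 : R (f σ : G) (τ : V ≃ₗ[F] V) := by rw [h4]; exact hf τ
    obtain ⟨c, hc, h7⟩ := T.uniq (hf σ) h6
    have hv0 : v 0 ≠ 0 := v.ne_zero 0
    have hc1 : c = 1 := by
      have h8 := h7 (v 0)
      have h9 : ((σ : V ≃ₗ[F] V) (v 0) = v 0) ↔ ((τ : V ≃ₗ[F] V) (v 0) = v 0) := by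
        rw [← decide_eq_decide]; exact h5
      have h10 : (σ : V ≃ₗ[F] V) (v 0) = (τ : V ≃ₗ[F] V) (v 0) := by
        rcases (H292.Co3.mem_Sg_iff.1 σ.2).2 0 with h11 | h11
        · rw [h11, h9.1 h11]
        · rcases (H292.Co3.mem_Sg_iff.1 τ.2).2 0 with h12 | h12
          · rw [h9.2 h12, h12]
          · rw [h11, h12]
      rw [← h10] at h8
      have h11 : (1 - c) • (σ : V ≃ₗ[F] V) (v 0) = 0 := by rw [sub_smul, one_smul, ← h8, sub_self]
      have h12 : (σ : V ≃ₗ[F] V) (v 0) ≠ 0 := fun h => hv0 (by rwa [LinearEquiv.map_eq_zero_iff] at h)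
      exact (sub_eq_zero.1 ((smul_eq_zero.1 h11).resolve_right h12)).symm
    apply Subtype.ext
    apply LinearEquiv.ext
    intro u
    rw [h7, hc1, one_smul]
  have h4 := Nat.card_le_card_of_injective _ hinj
  rw [Nat.card_prod, Nat.card_eq_fintype_card (α := Bool), Fintype.card_bool] at h4
  have hfS : Finite ↥Sg := Finite.of_injective _ hinj
  have h5 : 0 < Nat.card ↥Sg := Nat.card_pos
  have h6 := Nat.le_of_dvd h5 hcard
  norm_num at h6 h2
  omega

end Cfsg.Agent.H64.Co3
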